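import Cfsg.Agent.IsometryClasses.Atoms
import Cfsg.Agent.LinAlg.Witt.Bases
import Cfsg.Agent.LinAlg.Witt.Discr

/-!
Determinants of multiplications in the quotients by powers of atoms, and determinants of
alternating forms.
-/

set_option autoImplicit false
set_option linter.style.haveILetI false

namespace CfsgLib.OmegaClasses

open Polynomial Module Matrix CfsgLib.IsometryClasses
open scoped Classical

variable {F : Type*} [Field F]

/-- The determinant of a non-degenerate alternating form is a square. -/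
theorem isSquare_det_gram_of_isAlt {W : Type*} [AddCommGroup W] [Module F W] [FiniteDimensional F W]
    {κ : Type*} [Fintype κ] [DecidableEq κ] (b : Basis κ F W) (B : LinearMap.BilinForm F W)
    (hA : B.IsAlt) (hker : LinearMap.ker B = ⊥) :
    IsSquare (CfsgLib.LinAlg.Witt.gram B b).det := by
  obtain ⟨m, s, -, hef, hee, hff⟩ := CfsgLib.LinAlg.Witt.exists_symplectic_basis B hA hker
  have hJ : CfsgLib.LinAlg.Witt.gram B s = fromBlocks 0 1 (-1) 0 := by
    ext i j
    rw [CfsgLib.LinAlg.Witt.gram_apply]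
    rcases i with i | i <;> rcases j with j | j
    · simp [hee]
    · simp [hef, Matrix.one_apply]
    · rw [← LinearMap.BilinForm.IsAlt.neg_eq hA, hef]
      simp [Matrix.one_apply, eq_comm]
    · simp [hff]
  have hdet : (fromBlocks (0 : Matrix (Fin m) (Fin m) F) (1 : Matrix (Fin m) (Fin m) F) (-1 : Matrix (Fin m) (Fin m) F)
      (0 : Matrix (Fin m) (Fin m) F)).det = 1 := by
    have h1 : fromBlocks (0 : Matrix (Fin m) (Fin m) F) (1 : Matrix (Fin m) (Fin m) F) (-1 : Matrix (Fin m) (Fin m) F) (0 : Matrix (Fin m) (Fin m) F) *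
        fromBlocks (1 : Matrix (Fin m) (Fin m) F) 0 1 1 = fromBlocks 1 1 (-1) 0 := by
      simp [fromBlocks_multiply]
    have h2 := congrArg Matrix.det h1
    rw [Matrix.det_mul, det_fromBlocks_zero₁₂, det_fromBlocks_one₁₁, det_one, one_mul, mul_one] at h2
    rw [h2]
    simp
  let e : κ ≃ Fin m ⊕ Fin m := b.indexEquiv s
  have hch : (CfsgLib.LinAlg.Witt.gram B (b.reindex e)).det = (CfsgLib.LinAlg.Witt.gram B b).det := by
    rw [show CfsgLib.LinAlg.Witt.gram B (b.reindex e) = (CfsgLib.LinAlg.Witt.gram B b).submatrix e.symm e.symm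
      from Matrix.ext fun a c => by simp [CfsgLib.LinAlg.Witt.gram_apply],
      Matrix.det_submatrix_equiv_self]
  rw [← hch, CfsgLib.LinAlg.Witt.gram_change B s, hJ, Matrix.det_mul, Matrix.det_mul, Matrix.det_transpose,
    hdet, mul_one]
  exact ⟨_, rfl⟩

section DetMk

variable (F) in
/-- The product over the roots of `p` computing the determinant of `p` modulo `f`. -/
noncomputable def rootVal (f p : F[X]) : AlgebraicClosure F :=
  algebraMap F (AlgebraicClosure F) p.leadingCoeff ^ f.natDegree *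
    (((p.map (algebraMap F (AlgebraicClosure F))).roots).map fun μ =>
      (-1) ^ f.natDegree * (f.map (algebraMap F (AlgebraicClosure F))).eval μ).prod

theorem det_mk {f : F[X]} (hm : f.Monic) (p : F[X]) :
    algebraMap F (AlgebraicClosure F) (LinearMap.det (LinearMap.mulLeft F (AdjoinRoot.mk f p))) =
      rootVal F f p := by
  set K := AlgebraicClosure F
  set pb := AdjoinRoot.powerBasis' hm with hpb
  have hcp : (Algebra.leftMulMatrix pb.basis pb.gen).charpoly = f := by
    rw [charpoly_leftMulMatrix pb, show pb.gen = AdjoinRoot.root f from rfl,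
      AdjoinRoot.minpoly_root hm.ne_zero, hm.leadingCoeff, inv_one, C_1, mul_one]
  have hdim : pb.dim = f.natDegree := AdjoinRoot.powerBasis'_dim hm
  rw [← LinearMap.det_toMatrix pb.basis, show LinearMap.toMatrix pb.basis pb.basis
      (LinearMap.mulLeft F (AdjoinRoot.mk f p)) = Algebra.leftMulMatrix pb.basis (AdjoinRoot.mk f p) from rfl,
    show AdjoinRoot.mk f p = aeval pb.gen p from (AdjoinRoot.aeval_eq p).symm, ← aeval_algHom_apply]
  set M := Algebra.leftMulMatrix pb.basis pb.gen
  let μK : Matrix (Fin pb.dim) (Fin pb.dim) F →ₐ[F] Matrix (Fin pb.dim) (Fin pb.dim) K :=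
    (Algebra.ofId F K).mapMatrix
  have h1 : algebraMap F K (aeval M p).det = (aeval (μK M) (p.map (algebraMap F K))).det := by
    rw [aeval_map_algebraMap, RingHom.map_det]
    exact congrArg Matrix.det (aeval_algHom_apply μK M p).symm
  rw [h1]
  have hK : (μK M).charpoly = f.map (algebraMap F K) := by
    rw [show μK M = M.map (algebraMap F K) from rfl, Matrix.charpoly_map, hcp]
  set pK := p.map (algebraMap F K) with hpK
  have hprod : pK = C pK.leadingCoeff * (pK.roots.map fun μ => X - C μ).prod :=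
    (IsAlgClosed.splits pK).eq_prod_roots
  have hl : pK.leadingCoeff = algebraMap F K p.leadingCoeff := by
    rw [hpK, leadingCoeff_map]
  let D : K[X] →* K := (Matrix.detMonoidHom).comp (aeval (μK M)).toRingHom.toMonoidHom
  have hD : ∀ r, D r = (aeval (μK M) r).det := fun r => rfl
  rw [← hD]
  conv_lhs => rw [hprod]
  rw [map_mul, map_multiset_prod, Multiset.map_map, rootVal, ← hpK, hl]
  congr 1
  · rw [hD, aeval_C, Matrix.algebraMap_eq_diagonal, Matrix.det_diagonal, Pi.algebraMap_def,
      Finset.prod_const, Finset.card_univ, Fintype.card_fin, ← hdim]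
    rfl
  · refine congrArg Multiset.prod (Multiset.map_congr rfl fun μ _ => ?_)
    rw [Function.comp_apply, hD, ← hK, Matrix.eval_charpoly, map_sub, aeval_X, aeval_C,
      ← neg_sub (algebraMap K _ μ) (μK M), Matrix.det_neg, Fintype.card_fin, ← hdim]
    rfl

theorem det_mk_mul {f g : F[X]} (hf : f.Monic) (hg : g.Monic) (p : F[X]) :
    LinearMap.det (LinearMap.mulLeft F (AdjoinRoot.mk (f * g) p)) =
      LinearMap.det (LinearMap.mulLeft F (AdjoinRoot.mk f p)) *
        LinearMap.det (LinearMap.mulLeft F (AdjoinRoot.mk g p)) := by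
  refine (algebraMap F (AlgebraicClosure F)).injective ?_
  rw [map_mul, det_mk (hf.mul hg), det_mk hf, det_mk hg, rootVal, rootVal, rootVal,
    hf.natDegree_mul hg, pow_add, mul_mul_mul_comm, ← Multiset.prod_map_mul]
  refine congrArg _ (congrArg Multiset.prod (Multiset.map_congr rfl fun μ _ => ?_))
  rw [Polynomial.map_mul, eval_mul, pow_add]
  ring

theorem det_mk_pow {f : F[X]} (hf : f.Monic) (p : F[X]) : ∀ k : ℕ,
    LinearMap.det (LinearMap.mulLeft F (AdjoinRoot.mk (f ^ k) p)) =
      LinearMap.det (LinearMap.mulLeft F (AdjoinRoot.mk f p)) ^ k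
  | 0 => by
    rw [pow_zero, pow_zero]
    haveI : Subsingleton (AdjoinRoot (1 : F[X])) := subsingleton_of_zero_eq_one (by
      rw [← map_one (AdjoinRoot.mk (1 : F[X])), AdjoinRoot.mk_self])
    rw [LinearMap.det_eq_one_of_subsingleton]
  | k + 1 => by rw [pow_succ, pow_succ, det_mk_mul (hf.pow k) hf, det_mk_pow hf p k]

end DetMk

theorem det_sig {f : F[X]} (hf : Recip f) (a : AdjoinRoot f) :
    LinearMap.det (LinearMap.mulLeft F (sig hf a)) = LinearMap.det (LinearMap.mulLeft F a) := by
  let e : AdjoinRoot f ≃ₗ[F] AdjoinRoot f := (AlgEquiv.ofAlgHom (sig hf) (sig hf)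
    (AlgHom.ext (sig_sig hf)) (AlgHom.ext (sig_sig hf))).toLinearEquiv
  rw [← LinearMap.det_conj (LinearMap.mulLeft F a) e]
  congr 1
  ext x
  show sig hf a * x = sig hf (a * e.symm x)
  rw [map_mul]
  congr 1
  exact (sig_sig hf x).symm

theorem det_mulLeft_mul {A : Type*} [CommRing A] [Algebra F A] (a b : A) :
    LinearMap.det (LinearMap.mulLeft F (a * b)) =
      LinearMap.det (LinearMap.mulLeft F a) * LinearMap.det (LinearMap.mulLeft F b) := by
  rw [← LinearMap.det_comp]
  congr 1
  exact LinearMap.ext fun x => mul_assoc a b x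

theorem isUnit_of_det_ne_zero [Finite F] {f : F[X]} (hm : f.Monic) {a : AdjoinRoot f}
    (h : LinearMap.det (LinearMap.mulLeft F a) ≠ 0) : IsUnit a := by
  haveI := (AdjoinRoot.powerBasis' hm).finite
  obtain ⟨b, hb⟩ := (LinearMap.equivOfDetNeZero _ h).surjective 1
  exact IsUnit.of_mul_eq_one b hb

/-- An element whose determinant is not a square and which differs from its conjugate by a unit. -/
theorem exists_det_nonsquare [Finite F] (h2 : (2 : F) ≠ 0) {H : F[X]} (hH : Recip H)
    (hat : Lab.IsGenAtom H) {k : ℕ} (hk : Odd k) :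
    ∃ a : AdjoinRoot (H ^ k), IsUnit a ∧ IsUnit (sig (hH.pow k) a - a) ∧
      ¬ IsSquare (LinearMap.det (LinearMap.mulLeft F a)) := by
  obtain ⟨ν, hν⟩ : ∃ ν : F, ¬ IsSquare ν := FiniteField.exists_nonsquare (by
    intro e
    apply h2
    have := CharP.cast_eq_zero F (ringChar F)
    rwa [e, Nat.cast_ofNat] at this)
  obtain ⟨p, hp⟩ : ∃ p : F[X], ¬ IsSquare (LinearMap.det (LinearMap.mulLeft F (AdjoinRoot.mk H p))) := by
    rcases hat.2 with hi | ⟨P, Q, hPm, hQm, hP, hQ, hne, rfl, -⟩
    · haveI : Fact (Irreducible H) := ⟨hi⟩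
      haveI := finite_adjoinRoot hH.monic
      obtain ⟨e, he⟩ := FiniteField.norm_surjective F (AdjoinRoot H) ν
      obtain ⟨p, rfl⟩ := AdjoinRoot.mk_surjective (g := H) e
      exact ⟨p, by rw [show LinearMap.mulLeft F (AdjoinRoot.mk H p) = Algebra.lmul F _ (AdjoinRoot.mk H p) from
        rfl, ← Algebra.norm_apply, he]; exact hν⟩
    · haveI : Fact (Irreducible P) := ⟨hP⟩
      haveI := finite_adjoinRoot hPm
      obtain ⟨e, he⟩ := FiniteField.norm_surjective F (AdjoinRoot P) ν
      obtain ⟨c, rfl⟩ := AdjoinRoot.mk_surjective (g := P) e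
      obtain ⟨a, b, hab⟩ := isCoprime_of_ne hP hQ hPm hQm hne
      refine ⟨c * (b * Q) + a * P, ?_⟩
      rw [det_mk_mul hPm hQm]
      have e1 : AdjoinRoot.mk P (c * (b * Q) + a * P) = AdjoinRoot.mk P c := by
        rw [AdjoinRoot.mk_eq_mk]
        exact ⟨a - c * a, by linear_combination c * hab⟩
      have e2 : AdjoinRoot.mk Q (c * (b * Q) + a * P) = 1 := by
        rw [← map_one (AdjoinRoot.mk Q), AdjoinRoot.mk_eq_mk]
        exact ⟨c * b - b, by linear_combination hab⟩
      rw [e1, e2, LinearMap.mulLeft_one, LinearMap.det_id, mul_one,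
        show LinearMap.mulLeft F (AdjoinRoot.mk P c) = Algebra.lmul F _ (AdjoinRoot.mk P c) from rfl,
        ← Algebra.norm_apply, he]
      exact hν
  have hne0 : LinearMap.det (LinearMap.mulLeft F (AdjoinRoot.mk H p)) ≠ 0 := fun e =>
    hp (e ▸ IsSquare.zero)
  have hu := isUnit_of_det_ne_zero hH.monic hne0
  have hfix : sig hH (AdjoinRoot.mk H p) ≠ AdjoinRoot.mk H p := fun e => by
    obtain ⟨b, hb⟩ := normSurj_of_isGenAtom hH hat _ hu e
    exact hp (by rw [← hb, det_mulLeft_mul, det_sig]; exact ⟨_, rfl⟩)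
  have hdu : IsUnit (sig hH (AdjoinRoot.mk H p) - AdjoinRoot.mk H p) := by
    obtain ⟨c, d, hcd⟩ := atomCond_of_isGenAtom hH hat _ (sub_ne_zero.2 hfix)
    rw [map_sub, sig_sig] at hcd
    exact IsUnit.of_mul_eq_one (c - d) (by linear_combination hcd)
  have hk0 := hk.pos.ne'
  refine ⟨AdjoinRoot.mk (H ^ k) p, isUnit_of_red hk0 (by rwa [red_mk]), isUnit_of_red hk0 ?_, ?_⟩
  · rw [map_sub, red_sig hH, red_mk]; exact hdu
  · rw [det_mk_pow hH.monic]
    obtain ⟨m, rfl⟩ := hk
    rintro ⟨w, hw⟩
    refine hp ⟨w / LinearMap.det (LinearMap.mulLeft F (AdjoinRoot.mk H p)) ^ m, ?_⟩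
    field_simp
    linear_combination hw

end CfsgLib.OmegaClasses
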