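import Cfsg.Agent.Classical.Orth.Index
import Cfsg.Agent.IsometryClasses.OrthClasses
import Cfsg.Agent.OmegaClasses.Norms

/-!
Isometries supported on one piece, their residual spaces and spinor norms.
-/

set_option autoImplicit false
set_option linter.style.haveILetI false

namespace CfsgLib.OmegaClasses

open Polynomial Module Matrix Cfsg.Geo CfsgLib.IsometryClasses CfsgLib.Classical.Orth CfsgLib.OrthGeo

variable {F : Type*} [Field F] {ι : Type} [Fintype ι] [DecidableEq ι] {Q : (ι → F) → F}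

theorem exists_block_element (h2 : (2 : F) ≠ 0) (hQ : IsNondegenerateQuadraticForm Q)
    {W : Type*} [AddCommGroup W] [Module F W] [FiniteDimensional F W] {κ : Type*} [Fintype κ]
    [DecidableEq κ] (b : Basis κ F W) (g : Cfsg.isometryGroup F Q) (e : W →ₗ[F] (ι → F))
    (β : LinearMap.BilinForm F W) (hβ : ∀ a c, polarB hQ (e a) (e c) = β a c)
    (hker : LinearMap.ker β = ⊥) (gW : W →ₗ[F] W) (hge : ∀ a, isoEquiv g (e a) = e (gW a))
    (hW : W →ₗ[F] W) (hcomm : ∀ a, hW (gW a) = gW (hW a))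
    (hiso : ∀ a c, β (hW a) (hW c) = β a c) (D : W →ₗ[F] W) (hD : ∀ a, D a = a - hW a)
    (hDs : Function.Surjective D) :
    ∃ h : Cfsg.isometryGroup F Q, Commute h g ∧
      finrank F (residual (h : GL ι F)) = finrank F W ∧
      SqClassEq (spinor hQ (h : GL ι F))
        (LinearMap.det D * (CfsgLib.LinAlg.Witt.gram β b).det) := by
  classical
  set B := polarB hQ with hB
  have hBs : ∀ x y, B x y = B y x := fun x y => QuadraticMap.polar_comm Q x y
  have hβi : Function.Injective β := LinearMap.ker_eq_bot.1 hker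
  have hei : Function.Injective e := by
    rw [injective_iff_map_eq_zero]
    intro a ha
    refine hβi ((LinearMap.ext fun c => ?_).trans (map_zero β).symm)
    rw [← hβ, ha, map_zero, LinearMap.zero_apply, LinearMap.zero_apply]
  let T : W ≃ₗ[F] Module.Dual F W :=
    LinearMap.linearEquivOfInjective β hβi Subspace.dual_finrank_eq.symm
  let P : (ι → F) →ₗ[F] W := T.symm.toLinearMap ∘ₗ B.compl₂ e
  have hP : ∀ v c, β (P v) c = B v (e c) := fun v c => by
    have h1 : T (P v) = B.compl₂ e v := T.apply_symm_apply _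
    exact LinearMap.congr_fun h1 c
  have hPe : ∀ a, P (e a) = a := fun a => hβi (LinearMap.ext fun c => by rw [hP, hβ])
  have hβs : ∀ a c, β a c = β c a := fun a c => by rw [← hβ, hBs, hβ]
  let L : (ι → F) →ₗ[F] (ι → F) := LinearMap.id + e ∘ₗ (hW - LinearMap.id) ∘ₗ P
  have hL : ∀ v, L v = v + e (hW (P v) - P v) := fun v => rfl
  have hLB : ∀ v w, B (L v) (L w) = B v w := fun v w => by
    rw [hL, hL, map_add B, LinearMap.add_apply, map_add, map_add, hBs (e _) w, ← hP, ← hP, hβ]
    simp only [map_sub, LinearMap.sub_apply, hiso]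
    rw [hβs (P w) (hW (P v)), hβs (P w) (P v)]
    ring
  have hLi : Function.Injective L := by
    rw [injective_iff_map_eq_zero]
    intro v hv
    have hvB : v ∈ LinearMap.ker B := LinearMap.mem_ker.2 (LinearMap.ext fun w => by
      rw [← hLB, hv, map_zero, LinearMap.zero_apply, LinearMap.zero_apply])
    rwa [ker_polarB hQ, Submodule.mem_bot] at hvB
  let M : GL ι F := CfsgLib.TransvGL.ofEquiv (LinearEquiv.ofInjectiveEndo L hLi)
  have hM : ∀ v, (M : Matrix ι ι F) *ᵥ v = L v := fun v => by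
    rw [CfsgLib.TransvGL.ofEquiv_mulVec]; rfl
  have hmem : M ∈ Cfsg.isometryGroup F Q := fun v w => by
    show Q ((M : Matrix ι ι F) *ᵥ v) = Q v
    refine mul_left_cancel₀ h2 ?_
    rw [← quad_of_polarB h2 hQ, ← quad_of_polarB h2 hQ, hM, ← hB, hLB]
  have hgi : Function.Injective gW := fun a a' h => hei ((isoEquiv g).injective (by rw [hge, hge, h]))
  have hgs : Function.Surjective gW := LinearMap.surjective_of_injective hgi
  have hgB : ∀ v w, B (isoEquiv g v) (isoEquiv g w) = B v w := (isEps_isoEquiv hQ g).1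
  have hgβ : ∀ a c, β (gW a) (gW c) = β a c := fun a c => by rw [← hβ, ← hge, ← hge, hgB, hβ]
  have hPg : ∀ v, P (isoEquiv g v) = gW (P v) := fun v => hβi (LinearMap.ext fun c => by
    obtain ⟨c, rfl⟩ := hgs c
    rw [hP, ← hge, hgB, hgβ, hP])
  have hres : ∀ v, v - (M : Matrix ι ι F) *ᵥ v = e (D (P v)) := fun v => by
    rw [hM, hL, hD, sub_add_eq_sub_sub, sub_self, zero_sub, ← map_neg, neg_sub]
  refine ⟨⟨M, hmem⟩, ?_, ?_, ?_⟩
  · apply Subtype.ext
    apply Units.ext
    refine Matrix.ext_iff_mulVec.2 fun v => ?_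
    show ((M : Matrix ι ι F) * ((g : GL ι F) : Matrix ι ι F)) *ᵥ v =
      (((g : GL ι F) : Matrix ι ι F) * (M : Matrix ι ι F)) *ᵥ v
    rw [← Matrix.mulVec_mulVec, ← Matrix.mulVec_mulVec, hM, hM, ← isoEquiv_apply, ← isoEquiv_apply,
      hL, hL, hPg, map_add (isoEquiv g), hge, map_sub gW, hcomm]
  · have hr : residual M = LinearMap.range e := by
      ext u
      rw [CfsgLib.Classical.Orth.mem_residual]
      constructor
      · rintro ⟨x, rfl⟩; exact ⟨_, (hres x).symm⟩
      · rintro ⟨a, rfl⟩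
        obtain ⟨a', rfl⟩ := hDs a
        exact ⟨e a', by rw [hres, hPe]⟩
    show finrank F (residual M) = _
    rw [hr, LinearMap.finrank_range_of_inj hei]
  · have hDi : Function.Injective D := LinearMap.injective_iff_surjective.2 hDs
    let σ := (Fintype.equivFin κ).symm
    let x : Fin (Fintype.card κ) → ι → F := fun i => e (b (σ i))
    have hx : ∀ i, x i - (M : Matrix ι ι F) *ᵥ x i = e (D (b (σ i))) := fun i => by
      rw [hres, hPe]
    have hli : LinearIndependent F (fun i => x i - (M : Matrix ι ι F) *ᵥ x i) := by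
      simp only [hx]
      exact (b.linearIndependent.comp σ σ.injective).map' (e ∘ₗ D)
        (LinearMap.ker_eq_bot.2 (hei.comp hDi))
    have hsp : Submodule.span F (Set.range fun i => x i - (M : Matrix ι ι F) *ᵥ x i) = residual M := by
      simp only [hx]
      rw [show (fun i => e (D (b (σ i)))) = (e ∘ₗ D) ∘ b ∘ σ from rfl, Set.range_comp,
        ← Submodule.map_span, Set.range_comp, σ.surjective.range_eq, Set.image_univ, b.span_eq,
        Submodule.map_top]
      ext u
      rw [CfsgLib.Classical.Orth.mem_residual]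
      constructor
      · rintro ⟨a, rfl⟩; exact ⟨e a, by rw [hres, hPe]; rfl⟩
      · rintro ⟨v, rfl⟩; exact ⟨_, (hres v).symm⟩
    refine isWallDet_unique hQ hmem ⟨_, x, hli, hsp, ?_⟩ (isWallDet_spinor hQ M)
    rw [← LinearMap.det_toMatrix b, ← Matrix.det_transpose (LinearMap.toMatrix b b D), ← Matrix.det_mul,
      ← Matrix.det_submatrix_equiv_self σ (_ * _)]
    congr 1
    ext i j
    rw [Matrix.of_apply, hx, Matrix.submatrix_apply, Matrix.mul_apply]
    show B (e (D (b (σ i)))) (e (b (σ j))) = _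
    rw [hβ]
    conv_lhs => rw [← b.sum_repr (D (b (σ i))), map_sum, LinearMap.sum_apply]
    refine Finset.sum_congr rfl fun a _ => ?_
    rw [map_smul, LinearMap.smul_apply, smul_eq_mul, Matrix.transpose_apply, LinearMap.toMatrix_apply,
      CfsgLib.LinAlg.Witt.gram_apply]

/-! ### Pieces -/

variable {f : F[X]}

/-- The form of a single generator. -/
noncomputable def prodForm (hf : Recip f) (φ : AdjoinRoot f →ₗ[F] F) :
    LinearMap.BilinForm F (AdjoinRoot f) :=
  ((LinearMap.mul F (AdjoinRoot f)).compl₂ (sig hf).toLinearMap).compr₂ φ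

theorem prodForm_apply (hf : Recip f) (φ : AdjoinRoot f →ₗ[F] F) (a c : AdjoinRoot f) :
    prodForm hf φ a c = φ (a * sig hf c) := rfl

theorem ker_prodForm (hf : Recip f) {φ : AdjoinRoot f →ₗ[F] F} (h : Nd φ) :
    LinearMap.ker (prodForm hf φ) = ⊥ := by
  refine LinearMap.ker_eq_bot'.2 fun a ha => h a fun c => ?_
  rw [← sig_sig hf c, ← prodForm_apply hf, ha, LinearMap.zero_apply]

/-- The determinant of the form of a single generator. -/
noncomputable def gdet (hf : Recip f) (φ : AdjoinRoot f →ₗ[F] F) : F :=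
  (CfsgLib.LinAlg.Witt.gram (prodForm hf φ) (AdjoinRoot.powerBasis' hf.monic).basis).det

theorem gdet_ne_zero (hf : Recip f) {φ : AdjoinRoot f →ₗ[F] F} (h : Nd φ) : gdet hf φ ≠ 0 :=
  haveI := (AdjoinRoot.powerBasis' hf.monic).finite
  CfsgLib.LinAlg.Witt.gram_det_ne_zero _ _ (ker_prodForm hf h)

theorem gdet_mul (hf : Recip f) {φ ψ : AdjoinRoot f →ₗ[F] F} (ρ : AdjoinRoot f)
    (h : ∀ a, ψ a = φ (ρ * a)) :
    gdet hf ψ = LinearMap.det (LinearMap.mulLeft F ρ) * gdet hf φ := by
  set b := (AdjoinRoot.powerBasis' hf.monic).basis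
  rw [gdet, gdet, ← LinearMap.det_toMatrix b, ← Matrix.det_transpose (LinearMap.toMatrix b b _),
    ← Matrix.det_mul]
  congr 1
  ext i j
  rw [CfsgLib.LinAlg.Witt.gram_apply, prodForm_apply, h, ← mul_assoc, ← prodForm_apply hf,
    Matrix.mul_apply, show ρ * b i = LinearMap.mulLeft F ρ (b i) from rfl]
  conv_lhs => rw [← b.sum_repr (LinearMap.mulLeft F ρ (b i)), map_sum, LinearMap.sum_apply]
  refine Finset.sum_congr rfl fun a _ => ?_
  rw [map_smul, LinearMap.smul_apply, smul_eq_mul, Matrix.transpose_apply, LinearMap.toMatrix_apply,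
    CfsgLib.LinAlg.Witt.gram_apply]

variable {hQ : IsNondegenerateQuadraticForm Q} {g : Cfsg.isometryGroup F Q}

/-- An isometry acting on one piece by a multiplication. -/
theorem exists_piece_element [Finite F] (h2 : (2 : F) ≠ 0) (hf : Recip f) {x : ι → F}
    (hx : x ∈ kill (isoEquiv g) f) {φ : AdjoinRoot f →ₗ[F] F}
    (hφ : ∀ a, Phi (polarB hQ) (isoEquiv g) hf.monic x x a = φ a) (hnd : Nd φ)
    (u : AdjoinRoot f) (hu : u * sig hf u = 1) (h1u : IsUnit (1 - u)) :
    ∃ h : Cfsg.isometryGroup F Q, Commute h g ∧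
      finrank F (residual (h : GL ι F)) = f.natDegree ∧
      SqClassEq (spinor hQ (h : GL ι F))
        (LinearMap.det (LinearMap.mulLeft F (1 - u)) * gdet hf φ) := by
  haveI := (AdjoinRoot.powerBasis' hf.monic).finite
  obtain ⟨v, hv⟩ := h1u.exists_right_inv
  obtain ⟨h, hc, hr, hs⟩ := exists_block_element h2 hQ (AdjoinRoot.powerBasis' hf.monic).basis g
    (psi (isoEquiv g) hf.monic x) (prodForm hf φ)
    (fun a c => by rw [B_psi (isEps_isoEquiv hQ g) hf hx hx, prodForm_apply, ← hφ])
    (ker_prodForm hf hnd) (LinearMap.mulLeft F (AdjoinRoot.root f))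
    (fun a => (psi_root hf.monic hx a).symm) (LinearMap.mulLeft F u)
    (fun a => mul_left_comm u (AdjoinRoot.root f) a)
    (fun a c => by
      simp only [prodForm_apply, LinearMap.mulLeft_apply, map_mul]
      congr 1
      linear_combination (a * sig hf c) * hu)
    (LinearMap.mulLeft F (1 - u)) (fun a => by simp [sub_mul])
    (fun a => ⟨v * a, by rw [LinearMap.mulLeft_apply, ← mul_assoc, hv, one_mul]⟩)
  refine ⟨h, hc, hr.trans ?_, hs⟩
  rw [(AdjoinRoot.powerBasis' hf.monic).finrank, AdjoinRoot.powerBasis'_dim]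

/-- Minus one on one piece. -/
theorem exists_neg_element [Finite F] (h2 : (2 : F) ≠ 0) (hf : Recip f) {x : ι → F}
    (hx : x ∈ kill (isoEquiv g) f) {φ : AdjoinRoot f →ₗ[F] F}
    (hφ : ∀ a, Phi (polarB hQ) (isoEquiv g) hf.monic x x a = φ a) (hnd : Nd φ) :
    ∃ h : Cfsg.isometryGroup F Q, Commute h g ∧
      finrank F (residual (h : GL ι F)) = f.natDegree ∧
      SqClassEq (spinor hQ (h : GL ι F)) (2 ^ f.natDegree * gdet hf φ) := by
  haveI := (AdjoinRoot.powerBasis' hf.monic).finite
  have h11 : (1 : AdjoinRoot f) - -1 = algebraMap F _ 2 := by rw [map_ofNat]; ring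
  obtain ⟨h, hc, hr, hs⟩ := exists_piece_element h2 hf hx hφ hnd (-1) (by simp) (by
    rw [h11]; exact (IsUnit.mk0 _ h2).map _)
  refine ⟨h, hc, hr, ?_⟩
  rwa [h11, show LinearMap.mulLeft F (algebraMap F (AdjoinRoot f) 2) =
    (2 : F) • (LinearMap.id : AdjoinRoot f →ₗ[F] AdjoinRoot f) from LinearMap.ext fun a => by
      rw [LinearMap.mulLeft_apply, ← Algebra.smul_def]; rfl,
    LinearMap.det_smul, LinearMap.det_id, mul_one, (AdjoinRoot.powerBasis' hf.monic).finrank,
    AdjoinRoot.powerBasis'_dim] at hs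

end CfsgLib.OmegaClasses
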