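import Cfsg.Agent.OmegaClasses.Rigid

/-!
Counting rigid label sets.
-/

set_option autoImplicit false
set_option linter.style.haveILetI false

namespace CfsgLib.OmegaClasses

open Polynomial CfsgLib.IsometryClasses
open scoped _root_.Classical

/-- The bound for the labels of one exponent. -/
def levCnt (q k d : ℕ) : ℕ := if k % 2 = 0 then evenPow q d else Nat.choose 2 d

/-- The bound for rigid label sets. -/
def rigidCnt (q : ℕ) : ℕ → ℕ → ℕ
  | 0, N => if N = 0 then 1 else 0
  | K + 1, N => ∑ d ∈ Finset.range (N + 1),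
      if (K + 1) * d ≤ N then levCnt q (K + 1) d * rigidCnt q K (N - (K + 1) * d) else 0

section Sets

variable {F : Type*} [Field F] [Fintype F]

/-- Rigid labels of one exponent. -/
def rigidLev (F : Type*) [Field F] (k d : ℕ) : Set (Multiset (Lab F)) :=
  {L | LabOK (1 : F) L ∧ (∀ l ∈ L, l.k = k) ∧ (levelPoly L).natDegree = d ∧
    ∀ l ∈ L, l.sq = true ∧ (Odd l.k → l.IsKey ∧ L.count l = 1)}

theorem rigidLev_le (h2 : (2 : F) ≠ 0) (k d : ℕ) :
    (rigidLev F k d).Finite ∧ (rigidLev F k d).ncard ≤ levCnt (Fintype.card F) k d := by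
  by_cases hk : k % 2 = 0
  · have hsub : rigidLev F k d ⊆ levSetO F (fun _ => True) k d := fun L hL =>
      ⟨hL.1, hL.2.1, hL.2.2.1, fun _ _ => trivial⟩
    obtain ⟨hf, hc⟩ := levSetO_pal (F := F) h2 (fun _ => True) k d fun L hL l hl =>
      not_key_of_even h2 (hL.1 l hl).1 (by rw [hL.2.1 l hl]; exact Nat.even_iff.2 hk)
    refine ⟨hf.subset hsub, (Set.ncard_le_ncard hsub hf).trans ?_⟩
    rwa [levCnt, if_pos hk]
  · set T : Multiset (Lab F) :=
      ⟨k, X - C 1, false, true⟩ ::ₘ ⟨k, X - C (-1), false, true⟩ ::ₘ 0 with hT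
    have hodd : Odd k := Nat.odd_iff.2 (by omega)
    have hsub : rigidLev F k d ⊆ ↑(Multiset.powersetCard d T).toFinset := by
      rintro L ⟨hok, hkL, hd, hP⟩
      obtain ⟨-, hw, -⟩ := levelPoly_spec hok hkL
      have hwt : ∀ l ∈ L, l.wt = k := fun l hl => by
        obtain ⟨c, hc, hdb⟩ := ((hP l hl).2 (by rw [hkL l hl]; exact hodd)).1
        rw [Lab.wt, Lab.level, Lab.gens, hdb, if_neg (by simp), pow_one, hc, natDegree_X_sub_C, mul_one,
          hkL l hl]
      rw [Multiset.map_congr rfl hwt, Multiset.map_const', Multiset.sum_replicate, smul_eq_mul, hd,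
        mul_comm] at hw
      have hcard : Multiset.card L = d := Nat.eq_of_mul_eq_mul_left hodd.pos hw
      rw [Finset.mem_coe, Multiset.mem_toFinset, Multiset.mem_powersetCard]
      refine ⟨(Multiset.le_iff_subset ?_).2 ?_, hcard⟩
      · exact Multiset.nodup_iff_count_eq_one.2 fun l hl =>
          ((hP l hl).2 (by rw [hkL l hl]; exact hodd)).2
      · intro l hl
        obtain ⟨hs, hkey⟩ := hP l hl
        obtain ⟨⟨c, hc, hdb⟩, -⟩ := hkey (by rw [hkL l hl]; exact hodd)
        have h1 := (hok l hl).1.recip.coeff_zero_sq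
        rw [hc, coeff_sub, coeff_X_zero, coeff_C_zero, zero_sub, neg_mul_neg] at h1
        rcases mul_self_eq_one_iff.1 h1 with rfl | rfl
        · exact Multiset.mem_cons.2 (Or.inl (Lab.ext (hkL l hl) hc hdb hs))
        · exact Multiset.mem_cons_of_mem (Multiset.mem_cons.2 (Or.inl (Lab.ext (hkL l hl) hc hdb hs)))
    refine ⟨(Finset.finite_toSet _).subset hsub, (Set.ncard_le_ncard hsub (Finset.finite_toSet _)).trans ?_⟩
    rw [Set.ncard_coe_finset, levCnt, if_neg hk]
    refine (Multiset.toFinset_card_le _).trans_eq ?_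
    rw [Multiset.card_powersetCard]
    rfl

theorem rigidSet_le (h2 : (2 : F) ≠ 0) : ∀ K N,
    (rigidSet F K N).Finite ∧ (rigidSet F K N).ncard ≤ rigidCnt (Fintype.card F) K N
  | 0, N => by
    have hsub : rigidSet F 0 N ⊆ labSetO F (fun _ => True) 0 N := fun L hL =>
      ⟨hL.1, hL.2.1, hL.2.2.1, fun _ _ => trivial⟩
    obtain ⟨hf, h1, h0⟩ := labSetO_zero (F := F) (fun _ => True) N
    refine ⟨hf.subset hsub, (Set.ncard_le_ncard hsub hf).trans ?_⟩
    rw [rigidCnt]
    split_ifs with hN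
    · exact h1
    · rw [h0 hN, Set.ncard_empty]
  | K + 1, N => by
    let S : ℕ → Set (Multiset (Lab F) × Multiset (Lab F)) := fun d =>
      if (K + 1) * d ≤ N then rigidLev F (K + 1) d ×ˢ rigidSet F K (N - (K + 1) * d) else ∅
    have hSf : ∀ d, (S d).Finite := fun d => by
      simp only [S]
      split_ifs
      exacts [(rigidLev_le h2 _ _).1.prod (rigidSet_le h2 K _).1, Set.finite_empty]
    let U : Set (Multiset (Lab F) × Multiset (Lab F)) := ⋃ d ∈ Finset.range (N + 1), S d
    have hU : U.Finite := Set.Finite.biUnion (Finset.finite_toSet _) fun d _ => hSf d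
    let f : Multiset (Lab F) → Multiset (Lab F) × Multiset (Lab F) := fun L =>
      (L.filter fun l => l.k = K + 1, L.filter fun l => ¬ l.k = K + 1)
    have hinj : Set.InjOn f (rigidSet F (K + 1) N) := fun L _ L' _ e => by
      simp only [f, Prod.mk.injEq] at e
      rw [← Multiset.filter_add_not (fun l : Lab F => l.k = K + 1) L, e.1, e.2, Multiset.filter_add_not]
    have hmaps : ∀ L ∈ rigidSet F (K + 1) N, f L ∈ U := by
      rintro L ⟨hL, hk, hw, hP⟩
      have h1 : ∀ l ∈ L.filter (fun l => l.k = K + 1), l.k = K + 1 := fun l hl =>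
        (Multiset.mem_filter.1 hl).2
      have hP' : ∀ (p : Lab F → Prop) [DecidablePred p], ∀ l ∈ L.filter p,
          l.sq = true ∧ (Odd l.k → l.IsKey ∧ (L.filter p).count l = 1) := fun p _ l hl => by
        obtain ⟨hl1, hl2⟩ := Multiset.mem_filter.1 hl
        refine ⟨(hP l hl1).1, fun ho => ⟨((hP l hl1).2 ho).1, ?_⟩⟩
        rw [Multiset.count_filter_of_pos hl2]
        exact ((hP l hl1).2 ho).2
      obtain ⟨-, hwt, -⟩ := levelPoly_spec (labOK_filter hL _) h1
      set d := (levelPoly (L.filter fun l => l.k = K + 1)).natDegree with hd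
      have hsum : (K + 1) * d + ((L.filter fun l => ¬ l.k = K + 1).map Lab.wt).sum = N := by
        rw [← hwt, ← Multiset.sum_add, ← Multiset.map_add, Multiset.filter_add_not, hw]
      have hdle : d ≤ (K + 1) * d := Nat.le_mul_of_pos_left _ (Nat.succ_pos K)
      refine Set.mem_biUnion (x := d) (Finset.mem_range.2 (by omega)) ?_
      simp only [S, if_pos (show (K + 1) * d ≤ N by omega)]
      refine ⟨⟨labOK_filter hL _, h1, rfl, hP' _⟩, labOK_filter hL _, fun l hl => ?_, ?_, hP' _⟩
      · have := hk l (Multiset.mem_of_mem_filter hl)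
        have := (Multiset.mem_filter.1 hl).2
        omega
      · change ((L.filter fun l => ¬ l.k = K + 1).map Lab.wt).sum = _
        omega
    refine ⟨Set.Finite.of_injOn hmaps hinj hU, (Set.ncard_le_ncard_of_injOn f hmaps hinj hU).trans ?_⟩
    rw [rigidCnt]
    refine (Finset.set_ncard_biUnion_le _ _).trans (Finset.sum_le_sum fun d _ => ?_)
    simp only [S]
    split_ifs
    · rw [Set.ncard_prod]; exact Nat.mul_le_mul (rigidLev_le h2 _ _).2 (rigidSet_le h2 K _).2
    · simp

end Sets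

/-! ### Numerical bounds -/

theorem rigidCnt_mono {q : ℕ} (hq : 3 ≤ q) : ∀ K N j, N ≤ 4 * j + 3 →
    rigidCnt q K N * 3 ^ j ≤ rigidCnt 3 K N * q ^ j
  | 0, N, j, _ => Nat.mul_le_mul (le_of_eq (by simp [rigidCnt])) (Nat.pow_le_pow_left hq j)
  | K + 1, N, j, hj => by
    rw [rigidCnt, rigidCnt, Finset.sum_mul, Finset.sum_mul]
    refine Finset.sum_le_sum fun d _ => ?_
    split_ifs with hd
    · rw [levCnt, levCnt]
      split_ifs with hk
      · rw [evenPow, evenPow]
        split_ifs with he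
        · obtain ⟨e, rfl⟩ := he
          rw [show (e + e) / 2 = e by omega]
          have h4 : 2 * (e + e) ≤ (K + 1) * (e + e) := Nat.mul_le_mul_right _ (by omega)
          obtain ⟨i, rfl⟩ := Nat.exists_eq_add_of_le (show e ≤ j by omega)
          have h := rigidCnt_mono hq K (N - (K + 1) * (e + e)) i (by omega)
          rw [pow_add, pow_add]
          calc q ^ e * rigidCnt q K (N - (K + 1) * (e + e)) * (3 ^ e * 3 ^ i)
              = q ^ e * 3 ^ e * (rigidCnt q K (N - (K + 1) * (e + e)) * 3 ^ i) := by ring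
            _ ≤ q ^ e * 3 ^ e * (rigidCnt 3 K (N - (K + 1) * (e + e)) * q ^ i) := Nat.mul_le_mul_left _ h
            _ = _ := by ring
        · simp
      · rw [mul_assoc, mul_assoc]
        exact Nat.mul_le_mul_left _ (rigidCnt_mono hq K _ j (by omega))
    · simp

/-- The factor of one exponent at `7 / 10`. -/
noncomputable def levFac (k : ℕ) : ℝ :=
  if k % 2 = 0 then 1 / (1 - 3 * (7 / 10) ^ (2 * k)) else (1 + (7 / 10) ^ k) ^ 2

/-- The product of the factors. -/
noncomputable def rigidFac : ℕ → ℝ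
  | 0 => 1
  | K + 1 => rigidFac K * levFac (K + 1)

theorem den_pos' {k : ℕ} (hk : 2 ≤ k) : 0 < 1 - 3 * (7 / 10 : ℝ) ^ (2 * k) := by
  have h : (7 / 10 : ℝ) ^ (2 * k) ≤ (7 / 10) ^ 4 :=
    pow_le_pow_of_le_one (by norm_num) (by norm_num) (by omega)
  have h4 : (7 / 10 : ℝ) ^ 4 = 2401 / 10000 := by norm_num
  linarith

theorem one_le_levFac {k : ℕ} (hk : k ≠ 0) : 1 ≤ levFac k := by
  rw [levFac]
  split_ifs with h
  · rw [le_div_iff₀ (den_pos' (by omega))]
    have : 0 ≤ 3 * (7 / 10 : ℝ) ^ (2 * k) := by positivity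
    linarith
  · exact one_le_pow₀ (le_add_of_nonneg_right (by positivity))

theorem one_le_rigidFac : ∀ K, 1 ≤ rigidFac K
  | 0 => le_rfl
  | K + 1 => one_le_mul_of_one_le_of_one_le (one_le_rigidFac K) (one_le_levFac (by omega))

theorem sum_levCnt_le {k : ℕ} (hk : k ≠ 0) (R : ℕ) :
    ∑ d ∈ Finset.range R, (levCnt 3 k d : ℝ) * (7 / 10) ^ (k * d) ≤ levFac k := by
  rw [levFac]
  split_ifs with h
  · set z : ℝ := 3 * (7 / 10) ^ (2 * k) with hz
    have hz0 : 0 ≤ z := by positivity
    have hz1 : z < 1 := by have := den_pos' (k := k) (by omega); linarith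
    refine (Finset.sum_le_sum_of_subset_of_nonneg (Finset.range_mono (show R ≤ 2 * R by omega))
      fun d _ _ => mul_nonneg (Nat.cast_nonneg _) (by positivity)).trans
      ((le_of_eq ?_).trans (sum_geom_le hz0 hz1 R))
    clear hz hz0 hz1
    induction R with
    | zero => simp
    | succ R ih =>
      rw [show 2 * (R + 1) = 2 * R + 1 + 1 by ring, Finset.sum_range_succ, Finset.sum_range_succ,
        Finset.sum_range_succ, ih, levCnt, levCnt, if_pos h, if_pos h, evenPow, evenPow,
        if_pos (even_two_mul R), if_neg (Nat.not_even_two_mul_add_one R),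
        show 2 * R / 2 = R by omega, Nat.cast_zero, zero_mul, add_zero, Nat.cast_pow, mul_pow, ← pow_mul,
        show k * (2 * R) = 2 * k * R by ring]
      norm_num
  · refine (Finset.sum_le_sum_of_subset_of_nonneg (Finset.range_mono (show R ≤ R + 3 by omega))
      fun d _ _ => mul_nonneg (Nat.cast_nonneg _) (by positivity)).trans (le_of_eq ?_)
    rw [← Finset.sum_subset (Finset.range_mono (show 3 ≤ R + 3 by omega)) fun d _ hd => by
      rw [levCnt, if_neg h, Nat.choose_eq_zero_of_lt (by simp at hd; omega), Nat.cast_zero, zero_mul]]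
    simp [Finset.sum_range_succ, levCnt, if_neg h, Nat.choose]
    ring

theorem rigidCnt_three_le : ∀ K N, (rigidCnt 3 K N : ℝ) ≤ rigidFac K * (10 / 7) ^ N
  | 0, N => by
    rw [rigidCnt, rigidFac, one_mul]
    split_ifs with h
    · simp [h]
    · rw [Nat.cast_zero]; positivity
  | K + 1, N => by
    rw [rigidCnt, rigidFac, Nat.cast_sum]
    have hC : 0 ≤ rigidFac K := zero_le_one.trans (one_le_rigidFac K)
    calc ∑ d ∈ Finset.range (N + 1), ((if (K + 1) * d ≤ N then
          levCnt 3 (K + 1) d * rigidCnt 3 K (N - (K + 1) * d) else 0 : ℕ) : ℝ)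
        ≤ ∑ d ∈ Finset.range (N + 1),
            rigidFac K * (10 / 7) ^ N * ((levCnt 3 (K + 1) d : ℝ) * (7 / 10) ^ ((K + 1) * d)) := by
          refine Finset.sum_le_sum fun d _ => ?_
          split_ifs with hd
          · rw [Nat.cast_mul]
            refine (mul_le_mul_of_nonneg_left (rigidCnt_three_le K _) (Nat.cast_nonneg _)).trans_eq ?_
            obtain ⟨r, hr⟩ := Nat.exists_eq_add_of_le hd
            have hp : (10 / 7 : ℝ) ^ ((K + 1) * d) * (7 / 10) ^ ((K + 1) * d) = 1 := by
              rw [← mul_pow]; norm_num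
            rw [hr, Nat.add_sub_cancel_left, pow_add]
            linear_combination (-((levCnt 3 (K + 1) d : ℝ) * rigidFac K * (10 / 7) ^ r)) * hp
          · rw [Nat.cast_zero]; positivity
      _ ≤ rigidFac K * (10 / 7) ^ N * levFac (K + 1) := by
          rw [← Finset.mul_sum]
          exact mul_le_mul_of_nonneg_left (sum_levCnt_le (by omega) _) (by positivity)
      _ = _ := by ring

theorem rigidFac_le : ∀ K, rigidFac K ≤ 46 := by
  have hmono : ∀ K, rigidFac K ≤ rigidFac (K + 1) := fun K =>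
    le_mul_of_one_le_right (zero_le_one.trans (one_le_rigidFac K)) (one_le_levFac (by omega))
  have hbig : ∀ K, 16 ≤ K → rigidFac K ≤ 46 * (1 - 27 / 5 * (7 / 10) ^ K) := by
    intro K hK
    induction K, hK using Nat.le_induction with
    | base => simp only [rigidFac, levFac]; norm_num
    | succ K hK ih =>
      set x : ℝ := (7 / 10) ^ (K + 1) with hx
      have hx0 : 0 < x := by positivity
      have hx1 : x ≤ 1 / 400 := (pow_le_pow_of_le_one (by norm_num) (by norm_num)
        (show 17 ≤ K + 1 by omega)).trans (by norm_num)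
      have e1 : (7 / 10 : ℝ) ^ K = 10 / 7 * x := by rw [hx, pow_succ]; ring
      rw [e1] at ih
      have hfac : levFac (K + 1) ≤ 1 + 21 / 10 * x := by
        rw [levFac]
        split_ifs
        · rw [mul_comm 2 (K + 1), pow_mul, ← hx, div_le_iff₀ (by nlinarith)]
          nlinarith [pow_pos hx0 2, pow_pos hx0 3]
        · rw [← hx]; nlinarith
      rw [rigidFac]
      calc rigidFac K * levFac (K + 1) ≤ rigidFac K * (1 + 21 / 10 * x) :=
            mul_le_mul_of_nonneg_left hfac (zero_le_one.trans (one_le_rigidFac K))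
        _ ≤ 46 * (1 - 27 / 5 * (10 / 7 * x)) * (1 + 21 / 10 * x) :=
            mul_le_mul_of_nonneg_right ih (by positivity)
        _ ≤ 46 * (1 - 27 / 5 * x) := by nlinarith
  intro K
  have h1 : rigidFac K ≤ rigidFac (max K 16) := monotone_nat_of_le_succ hmono (le_max_left _ _)
  have h3 : (0 : ℝ) ≤ (7 / 10) ^ (max K 16) := by positivity
  nlinarith [hbig _ (le_max_right K 16)]

theorem rigidCnt_three_small : ∀ n ∈ Finset.Icc 2 10,
    5 * rigidCnt 3 (2 * n + 1) (2 * n + 1) ≤ 6 * 3 ^ n := by decide +kernel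

theorem pow_ge : ∀ n, 11 ≤ n → (56 : ℝ) ≤ (147 / 100) ^ n := fun n hn =>
  le_trans (by norm_num) (pow_le_pow_right₀ (by norm_num) hn)

/-- Rigid label sets are few. -/
theorem five_mul_rigidCnt_le {q n : ℕ} (hq : 3 ≤ q) (hn : 2 ≤ n) :
    5 * rigidCnt q (2 * n + 1) (2 * n + 1) ≤ 6 * q ^ n := by
  have h := rigidCnt_mono hq (2 * n + 1) (2 * n + 1) n (by omega)
  have h3 : 5 * rigidCnt 3 (2 * n + 1) (2 * n + 1) ≤ 6 * 3 ^ n := by
    rcases Nat.lt_or_ge n 11 with hs | hs
    · exact rigidCnt_three_small n (Finset.mem_Icc.2 ⟨hn, by omega⟩)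
    · have h1 := (rigidCnt_three_le (2 * n + 1) (2 * n + 1)).trans
        (mul_le_mul_of_nonneg_right (rigidFac_le _) (by positivity))
      have e : (10 / 7 : ℝ) ^ (2 * n + 1) * (147 / 100) ^ n = 10 / 7 * 3 ^ n := by
        rw [pow_succ, pow_mul, mul_right_comm, ← mul_pow]; norm_num; ring
      have h2 := mul_le_mul_of_nonneg_left (pow_ge n hs)
        (show (0 : ℝ) ≤ (10 / 7) ^ (2 * n + 1) by positivity)
      have h4 : ((5 * rigidCnt 3 (2 * n + 1) (2 * n + 1) : ℕ) : ℝ) ≤ ((6 * 3 ^ n : ℕ) : ℝ) := by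
        push_cast
        nlinarith
      exact_mod_cast h4
  refine Nat.le_of_mul_le_mul_right ?_ (pow_pos (show 0 < 3 by norm_num) n)
  calc 5 * rigidCnt q (2 * n + 1) (2 * n + 1) * 3 ^ n
      ≤ 5 * (rigidCnt 3 (2 * n + 1) (2 * n + 1) * q ^ n) := by rw [mul_assoc]; exact Nat.mul_le_mul_left _ h
    _ ≤ 6 * 3 ^ n * q ^ n := by rw [← mul_assoc]; exact Nat.mul_le_mul_right _ h3
    _ = _ := by ring

end CfsgLib.OmegaClasses
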