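import Cfsg.Agent.SUClassCount.CharPairs

/-!
The class number of a subgroup of index two.
-/

set_option autoImplicit false

open scoped Classical

namespace CfsgLib.OmegaClasses

open CfsgLib.SUClassCount

variable {G A : Type*} [Group G] [Fintype G] [CommGroup A] [Fintype A]

/-- Centralizer orders sum over the elements to the group order times the number of classes. -/
theorem sum_centralizer_ite (P : G → Prop) (hP : ∀ c x : G, P x → P (c * x * c⁻¹)) :
    ∑ x : G, (if P x then Nat.card (Subgroup.centralizer ({x} : Set G)) else 0) =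
      Nat.card G * Nat.card {C : ConjClasses G // P (Quotient.out C)} := by
  rw [← Finset.sum_fiberwise Finset.univ (ConjClasses.mk : G → _), Nat.card_eq_fintype_card
    (α := {C : ConjClasses G // P (Quotient.out C)}), Fintype.card_subtype, Finset.card_filter,
    Finset.mul_sum]
  refine Finset.sum_congr rfl fun C _ => ?_
  set g := Quotient.out C with hg
  have hC : ConjClasses.mk g = C := Quotient.out_eq C
  rw [Finset.sum_eq_card_nsmul (b := if P g then Nat.card (Subgroup.centralizer ({g} : Set G)) else 0)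
    fun x hx' => ?_]
  · rw [smul_eq_mul]
    split_ifs
    · rw [mul_one, ← CfsgLib.Chars.card_carrier_mul_card_centralizer g, ← Nat.card_eq_finsetCard]
      congr 1
      exact Nat.card_congr (Equiv.subtypeEquivRight fun x => by
        simp [ConjClasses.mem_carrier_iff_mk_eq, hC])
    · simp
  · have he : ConjClasses.mk x = ConjClasses.mk g := (Finset.mem_filter.1 hx').2.trans hC.symm
    obtain ⟨c, hc⟩ := isConj_iff.1 (ConjClasses.mk_eq_mk_iff_isConj.1 he)
    have hiff : P x ↔ P g := by
      constructor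
      · intro h; rw [← hc]; exact hP c x h
      · intro h
        have h' := hP c⁻¹ g h
        rwa [← hc, inv_inv, show c⁻¹ * (c * x * c⁻¹) * c = x by group] at h'
    have h1 := CfsgLib.Chars.card_carrier_mul_card_centralizer x
    rw [he, ← CfsgLib.Chars.card_carrier_mul_card_centralizer g] at h1
    rw [if_congr hiff (Nat.eq_of_mul_eq_mul_left (Nat.card_pos_iff.2
      ⟨⟨⟨g, ConjClasses.mem_carrier_mk⟩⟩, inferInstance⟩) h1) rfl]

/-- Twice the class number of a subgroup of index two. -/
theorem two_mul_card_classes_ker (d : G →* A) (hA : Nat.card A = 2) {K : Type*} [Group K] [Fintype K]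
    (ι : K →* G) (hι : Function.Injective ι) (hrange : ι.range = d.ker) (hd : Function.Surjective d) :
    2 * Nat.card (ConjClasses K) = Nat.card (ConjClasses G) +
      3 * Nat.card {C : ConjClasses G // ∀ y : G, Commute y (Quotient.out C) → d y = 1} := by
  haveI : Fact (Nat.card A).Prime := ⟨hA ▸ Nat.prime_two⟩
  haveI : IsCyclic A := isCyclic_of_prime_card rfl
  set P : G → Prop := fun x => ∀ y : G, Commute y x → d y = 1 with hP
  set s := Nat.card {C : ConjClasses G // P (Quotient.out C)} with hs
  have hPc : ∀ c x : G, P x → P (c * x * c⁻¹) := by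
    intro c x h y hy
    have h1 := h (c⁻¹ * y * c) (by
      show c⁻¹ * y * c * x = x * (c⁻¹ * y * c)
      calc c⁻¹ * y * c * x = c⁻¹ * (y * (c * x * c⁻¹)) * c := by group
        _ = c⁻¹ * ((c * x * c⁻¹) * y) * c := by rw [hy.eq]
        _ = x * (c⁻¹ * y * c) := by group)
    rwa [map_mul, map_mul, map_inv, mul_right_comm, inv_mul_cancel, one_mul] at h1
  have hval : ∀ γ : A →* ℂˣ, γ ≠ 1 → ∀ a : A, γ a = 1 → a = 1 := by
    intro γ hγ a ha
    by_contra hne
    apply hγ
    obtain ⟨x, y, hxy, hu⟩ := Nat.card_eq_two_iff.1 hA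
    ext b
    have hb : b = 1 ∨ b = a := by
      have e1 : (1 : A) ∈ ({x, y} : Set A) := hu ▸ Set.mem_univ _
      have e2 : a ∈ ({x, y} : Set A) := hu ▸ Set.mem_univ _
      have e3 : b ∈ ({x, y} : Set A) := hu ▸ Set.mem_univ _
      simp only [Set.mem_insert_iff, Set.mem_singleton_iff] at e1 e2 e3
      grind
    rcases hb with rfl | rfl
    · simp
    · rw [ha]; simp
  have hsum : ∀ γ : A →* ℂˣ, γ ≠ 1 → classSum d γ = (s : ℂ) := by
    intro γ hγ
    refine mul_left_cancel₀ (Nat.cast_ne_zero.2 (Nat.card_pos (α := G)).ne') ?_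
    have hsw : twistSum d 1 γ⁻¹ = twistSum d γ 1 := twistSum_swap d γ⁻¹ |>.trans (congrArg (twistSum d · 1) (inv_inv γ))
    rw [← twistSum_one, ← hsw, ← Nat.cast_mul, ← sum_centralizer_ite P hPc, twistSum, commPairs,
      Finset.sum_filter, Fintype.sum_prod_type, Nat.cast_sum]
    refine Finset.sum_congr rfl fun x _ => ?_
    simp only [MonoidHom.one_apply, one_mul]
    rw [← Finset.sum_filter, Finset.sum_subtype (p := fun y => y ∈ Subgroup.centralizer ({x} : Set G))
      (Finset.univ.filter fun y => x * y = y * x) (fun y => by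
        simp [Subgroup.mem_centralizer_iff, eq_comm]) (fun y => ((γ⁻¹ (d y) : ℂˣ) : ℂ))]
    let χ : Subgroup.centralizer ({x} : Set G) →* ℂ :=
      (Units.coeHom ℂ).comp ((γ⁻¹).comp (d.comp (Subgroup.centralizer ({x} : Set G)).subtype))
    change ∑ y, χ y = _
    by_cases hx : P x
    · rw [if_pos hx, Nat.card_eq_fintype_card]
      have : ∀ y, χ y = 1 := fun y => by
        show ((γ⁻¹ (d (y : G)) : ℂˣ) : ℂ) = 1
        rw [hx y (Subgroup.mem_centralizer_iff.1 y.2 x rfl).symm, map_one, Units.val_one]
      simp [this]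
    · rw [if_neg hx, Nat.cast_zero]
      refine sum_hom_units_eq_zero χ fun e => hx fun y hy => ?_
      have h1 := DFunLike.congr_fun e ⟨y, Subgroup.mem_centralizer_iff.2 fun z hz => by
        rw [Set.mem_singleton_iff.1 hz]; exact hy.eq.symm⟩
      exact hval γ⁻¹ (fun e' => hγ (MonoidHom.ext fun a => inv_eq_one.1 (DFunLike.congr_fun e' a))) (d y) (Units.ext h1)
  have hk := card_classes_ker d ι hι hrange hd
    (fun m => if m = 1 then Nat.card (ConjClasses G) else s) (fun γ => by
      by_cases h : γ = 1
      · subst h; simp [classSum, Nat.card_eq_fintype_card]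
      · rw [if_neg (fun e => h (orderOf_eq_one_iff.1 e)), hsum γ h])
  rw [hA] at hk
  rw [hk, ← Finset.add_sum_erase _ _ (Finset.mem_univ (1 : (A →* ℂˣ) × (A →* ℂˣ))), orderOf_one,
    if_pos rfl]
  refine (congrArg (_ + ·) (Finset.sum_congr rfl (g := fun _ => s) (fun γ hγ => if_neg fun e =>
      (Finset.mem_erase.1 hγ).1 (orderOf_eq_one_iff.1 e)))).trans ?_
  rw [Finset.sum_const, smul_eq_mul,
    Finset.card_erase_of_mem (Finset.mem_univ _), Finset.card_univ, Fintype.card_prod]
  have hcard : Fintype.card (A →* ℂˣ) = 2 := by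
    rw [← Nat.card_eq_fintype_card, CommGroup.card_monoidHom_of_hasEnoughRootsOfUnity, hA]
  rw [hcard]

end CfsgLib.OmegaClasses
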