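import Cfsg.Agent.OmegaClasses.Special
import Cfsg.Agent.IsometryClasses.OrthLower

/-!
Lower bound for the class number of the special orthogonal group in odd dimension.
-/

set_option autoImplicit false
set_option linter.style.haveILetI false

namespace CfsgLib.OmegaClasses

open Polynomial Module Matrix Cfsg.Geo CfsgLib.IsometryClasses CfsgLib.Classical.Orth
open scoped _root_.Classical

variable {F : Type*} [Field F] {ι : Type} [Fintype ι] [DecidableEq ι] {Q : (ι → F) → F}

theorem charpoly_mulLeft_root {h : F[X]} (hm : h.Monic) [Module.Finite F (AdjoinRoot h)] :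
    (LinearMap.mulLeft F (AdjoinRoot.root h)).charpoly = h := by
  set pb := AdjoinRoot.powerBasis' hm with hpb
  rw [← LinearMap.charpoly_toMatrix _ pb.basis]
  show (Algebra.leftMulMatrix pb.basis pb.gen).charpoly = h
  rw [charpoly_leftMulMatrix pb, show pb.gen = AdjoinRoot.root h from rfl,
    AdjoinRoot.minpoly_root hm.ne_zero, hm.leadingCoeff, inv_one, C_1, mul_one]

/-- An element of determinant one with prescribed characteristic polynomial of `g + g⁻¹`. -/
theorem exists_so_element [Fintype F] (h2 : (2 : F) ≠ 0) (hQ : IsNondegenerateQuadraticForm Q) {n : ℕ}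
    (hn : Fintype.card ι = 2 * n + 1) {P : F[X]} (hP : P.Monic) (hd : P.natDegree = n) :
    ∃ g : Cfsg.isometryGroup F Q, ((g : GL ι F) : Matrix ι ι F).det = 1 ∧
      (((g : GL ι F) : Matrix ι ι F) +
        (((g⁻¹ : Cfsg.isometryGroup F Q) : GL ι F) : Matrix ι ι F)).charpoly = (X - C 2) * P ^ 2 := by
  obtain ⟨P1, hP1, hnd1⟩ := exists_eq_pow_rootMultiplicity_mul_and_not_dvd P hP.ne_zero 2
  set na := P.rootMultiplicity 2
  have hP1m : P1.Monic := ((monic_X_sub_C _).pow na).of_mul_monic_left (hP1 ▸ hP)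
  obtain ⟨h, hh, hnd2⟩ := exists_eq_pow_rootMultiplicity_mul_and_not_dvd P1 hP1m.ne_zero (-2)
  set nb := P1.rootMultiplicity (-2)
  have hm : h.Monic := ((monic_X_sub_C _).pow nb).of_mul_monic_left (hh ▸ hP1m)
  have hmn : h.eval (-2) ≠ 0 := fun e => hnd2 (dvd_iff_isRoot.2 e)
  have hp : h.eval 2 ≠ 0 := fun e => hnd1 (dvd_iff_isRoot.2 (by
    show P1.eval 2 = 0
    rw [hh, eval_mul, e, mul_zero]))
  have hdeg : na + (nb + h.natDegree) = n := by
    rw [← hd, hP1, Monic.natDegree_mul ((monic_X_sub_C _).pow na) hP1m, hh,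
      Monic.natDegree_mul ((monic_X_sub_C _).pow nb) hm, natDegree_pow, natDegree_pow, natDegree_X_sub_C,
      natDegree_X_sub_C]
    ring
  haveI := (AdjoinRoot.powerBasis' hm).finite
  obtain ⟨b0, L, hL, hdet0⟩ := exists_basis_rotForm hm
  set D := (CfsgLib.LinAlg.Witt.gram (polarB hQ) (Pi.basisFun F ι)).det with hDdef
  have hD : D ≠ 0 := CfsgLib.LinAlg.Witt.gram_det_ne_zero _ _ (ker_polarB hQ)
  set r := (-1 : F) ^ h.natDegree * h.eval 2 * h.eval (-2) with hr
  have hr0 : r ≠ 0 := mul_ne_zero (mul_ne_zero (pow_ne_zero _ (neg_ne_zero.2 one_ne_zero)) hp) hmn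
  let dd : Fin (2 * na + 1) ⊕ Fin (2 * nb) → F := fun j => if j = Sum.inl 0 then D * r else 1
  let ev : Fin (2 * na + 1) ⊕ Fin (2 * nb) → F := Sum.elim (fun _ => 1) (fun _ => -1)
  have hev : ∀ j, ev j * ev j = 1 := fun j => by rcases j with j | j <;> simp [ev]
  let S : LinearMap.BilinForm F (Fin (2 * na + 1) ⊕ Fin (2 * nb) → F) :=
    Matrix.toBilin' (Matrix.diagonal dd)
  have hS : ∀ u v, S u v = ∑ j, dd j * (u j * v j) := fun u v => by
    rw [Matrix.toBilin'_apply', dotProduct]
    exact Finset.sum_congr rfl fun j _ => by rw [Matrix.mulVec_diagonal]; ring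
  let B : LinearMap.BilinForm F ((AdjoinRoot h × AdjoinRoot h) × (Fin (2 * na + 1) ⊕ Fin (2 * nb) → F)) :=
    (rotForm hm).comp (LinearMap.fst _ _ _) (LinearMap.fst _ _ _) +
      S.comp (LinearMap.snd _ _ _) (LinearMap.snd _ _ _)
  have hB : ∀ u v, B u v = rotForm hm u.1 v.1 + S u.2 v.2 := fun u v => rfl
  let b1 := b0.prod (Pi.basisFun F (Fin (2 * na + 1) ⊕ Fin (2 * nb)))
  have hgram : CfsgLib.LinAlg.Witt.gram B b1 =
      fromBlocks (CfsgLib.LinAlg.Witt.gram (rotForm hm) b0) 0 0 (Matrix.diagonal dd) := by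
    ext a c
    rw [CfsgLib.LinAlg.Witt.gram_apply, hB]
    rcases a with a | a <;> rcases c with c | c <;>
      simp [b1, S, CfsgLib.LinAlg.Witt.gram_apply, Matrix.diagonal_apply]
  have hpr : ∏ j, dd j = D * r := by
    rw [Finset.prod_eq_single (Sum.inl 0)]
    · exact if_pos rfl
    · exact fun j _ hj => if_neg hj
    · simp
  have hdd : (CfsgLib.LinAlg.Witt.gram B b1).det = L ^ 2 * r * (D * r) := by
    rw [hgram, det_fromBlocks_zero₁₂, hdet0, det_diagonal, hpr]
  have hkerB : LinearMap.ker B = ⊥ := CfsgLib.LinAlg.Witt.ker_eq_bot_of_gram_det_ne_zero B b1 (by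
    rw [hdd]
    exact mul_ne_zero (mul_ne_zero (pow_ne_zero _ hL) hr0) (mul_ne_zero hD hr0))
  have hsymm : ∀ u v, B u v = B v u := fun u v => by
    rw [hB, hB, rotForm_apply, rotForm_apply, hS, hS]
    refine congrArg₂ (· + ·) (congrArg (topCoeff hm) (by ring)) (Finset.sum_congr rfl fun j _ => by ring)
  have hcard : Fintype.card ((Fin h.natDegree ⊕ Fin h.natDegree) ⊕ (Fin (2 * na + 1) ⊕ Fin (2 * nb))) =
      Fintype.card ι := by
    simp only [Fintype.card_sum, Fintype.card_fin, hn]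
    omega
  let ε := Fintype.equivOfCardEq hcard
  have hdd' : (CfsgLib.LinAlg.Witt.gram B (b1.reindex ε)).det = (CfsgLib.LinAlg.Witt.gram B b1).det := by
    rw [show CfsgLib.LinAlg.Witt.gram B (b1.reindex ε) = (CfsgLib.LinAlg.Witt.gram B b1).submatrix ε.symm ε.symm
      from Matrix.ext fun a c => by simp [CfsgLib.LinAlg.Witt.gram_apply], Matrix.det_submatrix_equiv_self]
  obtain ⟨φ, hφ⟩ := CfsgLib.LinAlg.Witt.exists_isometry_of_det h2 B (polarB hQ) hsymm
    (fun u v => QuadraticMap.polar_comm Q u v) hkerB (ker_polarB hQ) (b1.reindex ε) (Pi.basisFun F ι)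
    (by rw [hdd', hdd]; exact ⟨L * r * D, by ring⟩)
  set x := AdjoinRoot.root h with hx
  let Rt : Module.End F (AdjoinRoot h × AdjoinRoot h) :=
    { toFun := fun u => (x * u.1 - u.2, u.1)
      map_add' := fun u v => by ext <;> simp <;> ring
      map_smul' := fun t u => by ext <;> simp [smul_sub, mul_left_comm] }
  let Rt' : Module.End F (AdjoinRoot h × AdjoinRoot h) :=
    { toFun := fun u => (u.2, x * u.2 - u.1)
      map_add' := fun u v => by ext <;> simp <;> ring
      map_smul' := fun t u => by ext <;> simp [smul_sub, mul_left_comm] }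
  let Dg : Module.End F (Fin (2 * na + 1) ⊕ Fin (2 * nb) → F) := Matrix.toLin' (Matrix.diagonal ev)
  have hDg : ∀ v j, Dg v j = ev j * v j := fun v j => by
    show (Matrix.toLin' (Matrix.diagonal ev) v) j = _
    rw [Matrix.toLin'_apply, Matrix.mulVec_diagonal]
  have hDD : ∀ v, Dg (Dg v) = v := fun v => funext fun j => by
    rw [hDg, hDg, ← mul_assoc, hev, one_mul]
  let G : Module.End F ((AdjoinRoot h × AdjoinRoot h) × (Fin (2 * na + 1) ⊕ Fin (2 * nb) → F)) :=
    LinearMap.prodMap Rt Dg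
  let G' : Module.End F ((AdjoinRoot h × AdjoinRoot h) × (Fin (2 * na + 1) ⊕ Fin (2 * nb) → F)) :=
    LinearMap.prodMap Rt' Dg
  have hGG' : G * G' = 1 := LinearMap.ext fun u => by
    show ((x * u.1.2 - (x * u.1.2 - u.1.1), u.1.2), Dg (Dg u.2)) = u
    rw [sub_sub_cancel, hDD]
  have hG'G : G' * G = 1 := LinearMap.ext fun u => by
    show ((u.1.1, x * u.1.1 - (x * u.1.1 - u.1.2)), Dg (Dg u.2)) = u
    rw [sub_sub_cancel, hDD]
  have hGB : ∀ u v, B (G u) (G v) = B u v := fun u v => by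
    rw [hB, hB]
    refine congrArg₂ (· + ·) ?_ ?_
    · rw [rotForm_apply, rotForm_apply]
      congr 1
      show 2 * ((x * u.1.1 - u.1.2) * (x * v.1.1 - v.1.2)) -
        x * ((x * u.1.1 - u.1.2) * v.1.1 + u.1.1 * (x * v.1.1 - v.1.2)) + 2 * (u.1.1 * v.1.1) = _
      ring
    · show S (Dg u.2) (Dg v.2) = _
      rw [hS, hS]
      refine Finset.sum_congr rfl fun j _ => ?_
      rw [hDg, hDg]
      linear_combination (dd j * (u.2 j * v.2 j)) * hev j
  let bb := Basis.ofEquivFun φ
  let T := LinearMap.toMatrixAlgEquiv bb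
  have hMu : ∀ f : Module.End F _, ∀ v, T f *ᵥ v = φ (f (φ.symm v)) := fun f v => by
    have := LinearMap.toMatrix_mulVec_repr bb bb f (φ.symm v)
    simp only [bb, Basis.ofEquivFun_repr_apply] at this
    have hv : ⇑(bb.repr (φ.symm v)) = v := funext fun a => by
      rw [Basis.ofEquivFun_repr_apply, LinearEquiv.apply_symm_apply]
    rw [hv] at this
    exact this.trans (funext fun a => Basis.ofEquivFun_repr_apply _ _ _)
  let M : GL ι F := ⟨T G, T G', by rw [← map_mul, hGG', map_one], by rw [← map_mul, hG'G, map_one]⟩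
  have hmem : M ∈ Cfsg.isometryGroup F Q := fun v w => by
    show Q ((M : Matrix ι ι F) *ᵥ v) = Q v
    refine mul_left_cancel₀ h2 ?_
    rw [← quad_of_polarB h2 hQ, ← quad_of_polarB h2 hQ]
    show polarB hQ (T G *ᵥ v) (T G *ᵥ v) = _
    rw [hMu, hφ, hGB, ← hφ, LinearEquiv.apply_symm_apply]
  refine ⟨⟨M, hmem⟩, ?_, ?_⟩
  · show (LinearMap.toMatrix bb bb G).det = 1
    rw [LinearMap.det_toMatrix, LinearMap.det_prodMap, LinearMap.det_toLin', Matrix.det_diagonal,
      Fintype.prod_sum_type]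
    simp only [ev, Sum.elim_inl, Sum.elim_inr, Finset.prod_const_one, Finset.prod_const, Finset.card_univ,
      Fintype.card_fin, pow_mul, neg_one_sq, one_pow, mul_one, one_mul]
    set pb := AdjoinRoot.powerBasis' hm
    set Mx : Matrix (Fin pb.dim) (Fin pb.dim) F := LinearMap.toMatrix pb.basis pb.basis (LinearMap.mulLeft F x)
    rw [← LinearMap.det_toMatrix (pb.basis.prod pb.basis), show LinearMap.toMatrix (pb.basis.prod pb.basis)
      (pb.basis.prod pb.basis) Rt = fromBlocks Mx (-1 : Matrix (Fin pb.dim) (Fin pb.dim) F)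
        (1 : Matrix (Fin pb.dim) (Fin pb.dim) F) (0 : Matrix (Fin pb.dim) (Fin pb.dim) F) from ?_]
    · have h1 : fromBlocks Mx (-1 : Matrix (Fin pb.dim) (Fin pb.dim) F) (1 : Matrix (Fin pb.dim) (Fin pb.dim) F)
          (0 : Matrix (Fin pb.dim) (Fin pb.dim) F) *
          fromBlocks (1 : Matrix (Fin pb.dim) (Fin pb.dim) F) (0 : Matrix (Fin pb.dim) (Fin pb.dim) F) (Mx + 1)
            (1 : Matrix (Fin pb.dim) (Fin pb.dim) F) =
          fromBlocks (-1 : Matrix (Fin pb.dim) (Fin pb.dim) F) (-1 : Matrix (Fin pb.dim) (Fin pb.dim) F)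
            (1 : Matrix (Fin pb.dim) (Fin pb.dim) F) (0 : Matrix (Fin pb.dim) (Fin pb.dim) F) := by
        simp [fromBlocks_multiply]
      have h3 : (fromBlocks (-1 : Matrix (Fin pb.dim) (Fin pb.dim) F) (-1 : Matrix (Fin pb.dim) (Fin pb.dim) F)
          (1 : Matrix (Fin pb.dim) (Fin pb.dim) F) (0 : Matrix (Fin pb.dim) (Fin pb.dim) F)) *
          fromBlocks (-1 : Matrix (Fin pb.dim) (Fin pb.dim) F) (0 : Matrix (Fin pb.dim) (Fin pb.dim) F)
            (0 : Matrix (Fin pb.dim) (Fin pb.dim) F) (-1 : Matrix (Fin pb.dim) (Fin pb.dim) F) =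
          fromBlocks (1 : Matrix (Fin pb.dim) (Fin pb.dim) F) (1 : Matrix (Fin pb.dim) (Fin pb.dim) F)
            (-1 : Matrix (Fin pb.dim) (Fin pb.dim) F) (0 : Matrix (Fin pb.dim) (Fin pb.dim) F) := by
        simp [fromBlocks_multiply]
      have e1 := congrArg Matrix.det h1
      have e3 := congrArg Matrix.det h3
      rw [Matrix.det_mul, det_fromBlocks_zero₁₂, det_one, one_mul, mul_one] at e1
      rw [Matrix.det_mul, det_fromBlocks_zero₁₂, Matrix.det_neg, det_one, mul_one, det_fromBlocks_one₁₁,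
        ← mul_pow, neg_mul_neg, one_mul, one_pow, mul_one] at e3
      rw [e1, e3]
      simp
    · ext i j
      rcases i with i | i <;> rcases j with j | j <;>
        simp [-PowerBasis.coe_basis, Mx, Rt, LinearMap.toMatrix_apply, Algebra.leftMulMatrix_eq_repr_mul, Matrix.one_apply, Finsupp.single_apply, eq_comm]
  · show (LinearMap.toMatrix bb bb G + LinearMap.toMatrix bb bb G').charpoly = _
    rw [← map_add, LinearMap.charpoly_toMatrix]
    have hsum : G + G' = LinearMap.prodMap (LinearMap.prodMap (LinearMap.mulLeft F x) (LinearMap.mulLeft F x))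
        (Matrix.toLin' (Matrix.diagonal fun j => 2 * ev j)) := by
      refine LinearMap.ext fun u => Prod.ext (Prod.ext ?_ ?_) (funext fun j => ?_)
      · show x * u.1.1 - u.1.2 + u.1.2 = x * u.1.1; ring
      · show u.1.1 + (x * u.1.2 - u.1.1) = x * u.1.2; ring
      · show Dg u.2 j + Dg u.2 j = Matrix.toLin' (Matrix.diagonal fun j => 2 * ev j) u.2 j
        rw [hDg, Matrix.toLin'_apply, Matrix.mulVec_diagonal]; ring
    rw [hsum, LinearMap.charpoly_prodMap, LinearMap.charpoly_prodMap, hx, charpoly_mulLeft_root hm,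
      ← LinearMap.charpoly_toMatrix (Matrix.toLin' (Matrix.diagonal fun j => 2 * ev j)) (Pi.basisFun F _),
      LinearMap.toMatrix_eq_toMatrix', LinearMap.toMatrix'_toLin', Matrix.charpoly_diagonal,
      Fintype.prod_sum_type]
    simp only [ev, Sum.elim_inl, Sum.elim_inr, Finset.prod_const, Finset.card_univ, Fintype.card_fin,
      mul_one, mul_neg]
    rw [hP1, hh, pow_succ, pow_mul', pow_mul']
    ring

/-- At least `q ^ n` classes in the special orthogonal group. -/
theorem le_card_classes_soGroup [Fintype F] (h2 : (2 : F) ≠ 0) (hQ : IsNondegenerateQuadraticForm Q)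
    {n : ℕ} (hn : Fintype.card ι = 2 * n + 1) :
    Fintype.card F ^ n ≤ Nat.card (ConjClasses (soGroup h2 hQ)) := by
  let P : (Fin n → F) → F[X] := fun f => X ^ n + ∑ i : Fin n, C (f i) * X ^ (i : ℕ)
  have hdeg : ∀ f : Fin n → F, (∑ i : Fin n, C (f i) * X ^ (i : ℕ)).degree < (n : WithBot ℕ) := fun f =>
    degree_sum_fin_lt f
  have hm : ∀ f, (P f).Monic := fun f => monic_X_pow_add (hdeg f)
  have hd : ∀ f, (P f).natDegree = n := fun f => by
    refine natDegree_eq_of_degree_eq_some ?_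
    show (X ^ n + ∑ i : Fin n, C (f i) * X ^ (i : ℕ)).degree = _
    rw [degree_add_eq_left_of_degree_lt (by rw [degree_X_pow]; exact hdeg f), degree_X_pow]
  have hPinj : Function.Injective P := fun f f' e => by
    have e' : ∑ i : Fin n, C (f i) * X ^ (i : ℕ) = ∑ i : Fin n, C (f' i) * X ^ (i : ℕ) := add_left_cancel e
    funext j
    have := congrArg (fun p : F[X] => p.coeff j) e'
    simpa [finsetSum_coeff, Fin.val_inj, Finset.sum_ite_eq] using this
  choose g hdet hcp using fun f : Fin n → F => exists_so_element h2 hQ hn (hm f) (hd f)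
  have hcard : Nat.card (Fin n → F) = Fintype.card F ^ n := by
    rw [Nat.card_eq_fintype_card, Fintype.card_fun, Fintype.card_fin]
  rw [← hcard]
  refine Nat.card_le_card_of_injective
    (fun f => ConjClasses.mk (⟨g f, mem_soGroup_of_det h2 hQ _ (hdet f)⟩ : soGroup h2 hQ)) fun f f' he => ?_
  obtain ⟨⟨x, hxm⟩, hx⟩ := isConj_iff.1 (ConjClasses.mk_eq_mk_iff_isConj.1 he)
  have hx' : x * g f * x⁻¹ = g f' := congrArg Subtype.val hx
  set A : Cfsg.isometryGroup F Q → Matrix ι ι F := fun g => ((g : GL ι F) : Matrix ι ι F) with hA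
  have e1 : A (g f') + A (g f')⁻¹ = A x * (A (g f) + A (g f)⁻¹) * A x⁻¹ := by
    rw [mul_add, add_mul, ← hx', show (x * g f * x⁻¹)⁻¹ = x * (g f)⁻¹ * x⁻¹ by group]
    simp only [hA, Subgroup.coe_mul, Units.val_mul]
  have e2 : (A (g f') + A (g f')⁻¹).charpoly = (A (g f) + A (g f)⁻¹).charpoly := by
    rw [e1]
    have e' := Matrix.charpoly_units_conj (x : GL ι F) (A (g f) + A (g f)⁻¹)
    simpa only [hA, InvMemClass.coe_inv, Matrix.coe_units_inv] using e'
  rw [hcp, hcp] at e2
  have e3 := mul_left_cancel₀ (X_sub_C_ne_zero (2 : F)) e2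
  rcases sq_eq_sq_iff_eq_or_eq_neg.1 e3 with e | e
  · exact hPinj e.symm
  · exfalso
    have := congrArg leadingCoeff e
    rw [leadingCoeff_neg, (hm _).leadingCoeff, (hm _).leadingCoeff] at this
    exact h2 (by linear_combination this)

end CfsgLib.OmegaClasses
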