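import Cfsg.Agent.OmegaClasses.Lower
import Cfsg.Agent.OmegaClasses.Count

/-!
The class number of `Omega` in odd dimension and odd characteristic.
-/

set_option autoImplicit false
set_option linter.style.haveILetI false

namespace CfsgLib.OmegaClasses

open Polynomial Module Matrix Cfsg.Geo CfsgLib.IsometryClasses CfsgLib.Classical.Orth
open scoped _root_.Classical

variable {F : Type*} [Field F] [Fintype F] {ι : Type} [Fintype ι] [DecidableEq ι] {Q : (ι → F) → F}

/-- The rigid classes are few. -/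
theorem card_rigid_classes_le (h2 : (2 : F) ≠ 0) (hQ : IsNondegenerateQuadraticForm Q)
    (ho : Odd (Fintype.card ι)) :
    Nat.card {C : ConjClasses (soGroup h2 hQ) //
        ∀ y : soGroup h2 hQ, Commute y (Quotient.out C) → soSpinor h2 hQ y = 1} ≤
      2 * rigidCnt (Fintype.card F) (Fintype.card ι) (Fintype.card ι) := by
  set N := Fintype.card ι
  obtain ⟨hfin, hle⟩ := rigidSet_le (F := F) h2 N N
  have hR : ∀ C : {C : ConjClasses (soGroup h2 hQ) //
      ∀ y : soGroup h2 hQ, Commute y (Quotient.out C) → soSpinor h2 hQ y = 1},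
      IsRigid hQ (Quotient.out C.1 : soGroup h2 hQ).1 := fun C h hc he =>
    (classHom_snd hQ (not_exc_of_two_ne_zero h2) h).1
      (C.2 ⟨h, (mem_soGroup h2 hQ h).2 he⟩ (Subtype.ext hc.eq))
  choose e U hU hL using fun C => exists_rigid_data h2 (hR C)
  haveI := hfin.to_subtype
  refine (Nat.card_le_card_of_injective (fun C => ((e C, ⟨U C, hU C⟩) : Bool × rigidSet F N N)) ?_).trans ?_
  · intro C D hCD
    simp only [Prod.mk.injEq, Subtype.mk.injEq] at hCD
    have h' := hL D
    rw [← hCD.1, ← hCD.2] at h'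
    obtain ⟨u, hu, huB⟩ := HasLabels.exists_isometry (isEps_isoEquiv hQ _) (isEps_isoEquiv hQ _) (hL C) h'
    have h1 := ConjClasses.mk_eq_mk_iff_isConj.2
      (isConj_soGroup h2 hQ ho (isConj_isometry h2 hQ u hu huB))
    rw [show ConjClasses.mk (Quotient.out C.1) = C.1 from Quotient.out_eq C.1,
      show ConjClasses.mk (Quotient.out D.1) = D.1 from Quotient.out_eq D.1] at h1
    exact Subtype.ext h1
  · rw [Nat.card_prod, Nat.card_eq_fintype_card (α := Bool), Fintype.card_bool, Nat.card_coe_set_eq]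
    exact Nat.mul_le_mul_left 2 hle

/-- The class number of `Omega` lies between `q ^ n / 2` and `73 q ^ n / 10`. -/
theorem card_classes_omega_bounds (h2 : (2 : F) ≠ 0) (hq : 3 ≤ Fintype.card F)
    (hQ : IsNondegenerateQuadraticForm Q) {n : ℕ} (hn : 2 ≤ n) (hι : Fintype.card ι = 2 * n + 1) :
    Fintype.card F ^ n ≤ 2 * Nat.card (ConjClasses ↥(Cfsg.Omega F Q)) ∧
      10 * Nat.card (ConjClasses ↥(Cfsg.Omega F Q)) ≤ 73 * Fintype.card F ^ n := by
  have ho : Odd (Fintype.card ι) := hι ▸ odd_two_mul_add_one n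
  have hk := two_mul_card_classes_omega h2 hQ (by omega)
  have hs := card_rigid_classes_le h2 hQ ho
  have hso := two_mul_card_classes_soGroup_le h2 hQ ho
  have hO := card_classes_le_odd h2 hq hQ hι
  have hlow := le_card_classes_soGroup h2 hQ hι
  have hc := five_mul_rigidCnt_le hq hn
  rw [hι] at hs
  set s := Nat.card {C : ConjClasses (soGroup h2 hQ) //
    ∀ y : soGroup h2 hQ, Commute y (Quotient.out C) → soSpinor h2 hQ y = 1}
  set k := Nat.card (ConjClasses (soGroup h2 hQ))
  refine ⟨by omega, ?_⟩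
  have h1 : ((5 * k : ℕ) : ℝ) ≤ ((37 * Fintype.card F ^ n : ℕ) : ℝ) := by
    have h3 : ((2 * k : ℕ) : ℝ) ≤ (Nat.card (ConjClasses (Cfsg.isometryGroup F Q)) : ℝ) :=
      Nat.cast_le.2 hso
    push_cast at h3 ⊢
    have hp : (0 : ℝ) ≤ (Fintype.card F : ℝ) ^ n := by positivity
    nlinarith
  have h1' : 5 * k ≤ 37 * Fintype.card F ^ n := Nat.cast_le.1 h1
  omega

end CfsgLib.OmegaClasses
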