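import Cfsg.Agent.OmegaClasses.Block

/-!
An isometry whose centralizer has square spinor norms has rigid labels.
-/

set_option autoImplicit false
set_option linter.style.haveILetI false

namespace CfsgLib.OmegaClasses

open Polynomial Module Matrix Cfsg.Geo CfsgLib.IsometryClasses CfsgLib.Classical.Orth CfsgLib.OrthGeo
open scoped _root_.Classical

variable {F : Type*} [Field F] {ι : Type} [Fintype ι] [DecidableEq ι] {Q : (ι → F) → F}

/-- The centralizer in the special orthogonal group has square spinor norms. -/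
def IsRigid (hQ : IsNondegenerateQuadraticForm Q) (g : Cfsg.isometryGroup F Q) : Prop :=
  ∀ h : Cfsg.isometryGroup F Q, Commute h g → Even (finrank F (residual (h : GL ι F))) →
    IsSquare (spinor hQ (h : GL ι F))

/-- The spinor norm of minus one on a single generator. -/
noncomputable def labVal (l : Lab F) : F :=
  if h : Recip l.modulus then 2 ^ l.modulus.natDegree * gdet h (l.single (1 : F)) else 0

theorem labVal_eq {l : Lab F} (h : Recip l.modulus) :
    labVal l = 2 ^ l.modulus.natDegree * gdet h (l.single (1 : F)) := dif_pos h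

/-- Change the sign. -/
def flipSq (l : Lab F) : Lab F := ⟨l.k, l.H, l.dbl, !l.sq⟩

/-- Forget the sign. -/
def eraseSq (l : Lab F) : Lab F := ⟨l.k, l.H, l.dbl, true⟩

theorem eraseSq_eq {l l' : Lab F} (e : eraseSq l = eraseSq l') : l' = l ∨ l' = flipSq l := by
  obtain ⟨k, H, d, s⟩ := l
  obtain ⟨k', H', d', s'⟩ := l'
  simp only [eraseSq, Lab.mk.injEq, and_true] at e
  obtain ⟨rfl, rfl, rfl⟩ := e
  cases s <;> cases s' <;> simp [flipSq]

/-- Restore the sign from the square class of the spinor norm. -/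
noncomputable def pickSq (e : Bool) (l : Lab F) : Lab F :=
  if l.IsKey ∧ ¬ (IsSquare (labVal l) ↔ e = true) then flipSq l else l

theorem odd_of_key (h2 : (2 : F) ≠ 0) {l : Lab F} (hl : l.Valid (1 : F)) (hk : l.IsKey) :
    Odd l.k ∧ l.modulus.natDegree = l.k := by
  refine ⟨Nat.not_even_iff_odd.1 fun he => not_key_of_even h2 hl he hk, ?_⟩
  obtain ⟨c, hc, -⟩ := hk
  rw [Lab.modulus, hc, natDegree_pow, natDegree_X_sub_C, mul_one]

theorem valid_flip {l : Lab F} (hl : l.Valid (1 : F)) (hk : l.IsKey) : (flipSq l).Valid (1 : F) := by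
  obtain ⟨c, hc, hd⟩ := hk
  refine ⟨hl.pos, hl.recip, hl.deg, ?_⟩
  rcases hl.kind with ⟨hg, -, -⟩ | ⟨c', h1, h2', ⟨h3, h4⟩ | ⟨h3, -⟩⟩
  · exact absurd hc (isGenAtom_not_linear hg (by
      have h1 := hl.recip.coeff_zero_sq
      rwa [hc, coeff_sub, coeff_X_zero, coeff_C_zero, zero_sub, neg_mul_neg] at h1))
  · exact Or.inr ⟨c', h1, h2', Or.inl ⟨h3, h4⟩⟩
  · rw [hd] at h3; exact absurd h3 (by simp)

theorem not_isSquare_mul_iff [Finite F] {x y : F} (hx : ¬ IsSquare x) (hy : y ≠ 0) :
    IsSquare (x * y) ↔ ¬ IsSquare y := by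
  rw [isSquare_mul_iff (fun e => hx (by rw [e]; exact IsSquare.zero)) hy]
  simp [hx]

theorem singleP_flip [Finite F] (h2 : (2 : F) ≠ 0) {l : Lab F} (hl : l.Valid (1 : F))
    (hS : l.SingleP (1 : F) (l.single 1)) :
    (flipSq l).SingleP (1 : F) ((flipSq l).single 1) := by
  obtain ⟨ν, hν⟩ := exists_not_isSquare (F := F) h2
  have hν0 : ν ≠ 0 := fun e => hν (by rw [e]; exact IsSquare.zero)
  refine Classical.epsilon_spec (p := (flipSq l).SingleP (1 : F)) ⟨ν • l.single 1, fun h => ⟨fun a => ?_, ?_⟩, ?_⟩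
  · show ν • (l.single (1 : F)) (sig _ a) = 1 * (ν • (l.single (1 : F)) a)
    exact (congrArg (ν • ·) ((hS.1 h).1 a)).trans (by simp)
  · intro a ha
    refine (hS.1 h).2 a fun b => (mul_eq_zero.1 (ha b)).resolve_left hν0
  · intro c hc
    have h1 := hS.2 c hc
    obtain ⟨k, H, d, s⟩ := l
    simp only [flipSq] at hc ⊢
    subst hc
    show IsSquare (ν * Lab.single (1 : F) (⟨k, X - C c, d, s⟩ : Lab F) (top (X - C c) k)) ↔ _
    have hne : Lab.single (1 : F) (⟨k, X - C c, d, s⟩ : Lab F) (top (X - C c) k) ≠ 0 := fun e => by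
      obtain ⟨b, hb⟩ := exists_top_ne hl.recip.monic hl.deg hl.pos (hS.1 hl.recip).2
      obtain ⟨v, hv⟩ := top_linear_scalar hl.pos b
      exact hb (by rw [hv, map_smul, e, smul_zero])
    rw [not_isSquare_mul_iff hν hne, h1]
    cases s <;> simp

theorem labVal_ne_zero {l : Lab F} (h2 : (2 : F) ≠ 0) (hl : l.Valid (1 : F))
    (hS : l.SingleP (1 : F) (l.single 1)) : labVal l ≠ 0 := by
  rw [labVal_eq hl.recip_modulus]
  exact mul_ne_zero (pow_ne_zero _ h2) (gdet_ne_zero _ (hS.1 hl.recip).2)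

theorem labVal_flip [Finite F] (h2 : (2 : F) ≠ 0) {l : Lab F} (hl : l.Valid (1 : F)) (hk : l.IsKey)
    (hS : l.SingleP (1 : F) (l.single 1)) :
    ∃ t, ¬ IsSquare t ∧ labVal (flipSq l) = t * labVal l := by
  obtain ⟨c, hc, hd⟩ := hk
  obtain ⟨-, ρ, -, hns, hρ⟩ := single_rep h2 hl hc hd rfl hS (singleP_flip h2 hl hS)
  refine ⟨_, hns, ?_⟩
  rw [labVal_eq hl.recip_modulus, labVal_eq (l := flipSq l) hl.recip_modulus,
    show gdet (f := (flipSq l).modulus) hl.recip_modulus ((flipSq l).single (1 : F)) =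
      LinearMap.det (LinearMap.mulLeft F ρ) * gdet hl.recip_modulus (l.single (1 : F)) from
      gdet_mul hl.recip_modulus ρ hρ, show (flipSq l).modulus.natDegree = l.modulus.natDegree from rfl]
  ring

variable {hQ : IsNondegenerateQuadraticForm Q} {g : Cfsg.isometryGroup F Q}
variable {κ : Type} [Fintype κ] {lab : κ → Lab F}

theorem exists_gen (N : NF (1 : F) (polarB hQ) (isoEquiv g) lab) (i : κ) (hd : (lab i).dbl = false) :
    ∃ x : ι → F, x ∈ kill (isoEquiv g) (lab i).modulus ∧
      (∀ a, Phi (polarB hQ) (isoEquiv g) (N.valid i).monic x x a = (lab i).single (1 : F) a) ∧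
      ∀ a, ∃ b, psi (isoEquiv g) (N.valid i).monic x a = pieceMap (isoEquiv g) (N.valid i).monic (N.xs i) b := by
  have hg : 0 < (lab i).gens := by rw [Lab.gens]; split_ifs <;> omega
  refine ⟨N.xs i ⟨0, hg⟩, N.mem i _, fun a => ?_, fun a => ⟨Pi.single ⟨0, hg⟩ a, ?_⟩⟩
  · rw [N.gram_eq, Lab.gram, if_neg (by simp [hd])]
  · rw [pieceMap_apply, Finset.sum_eq_single ⟨0, hg⟩ (fun j _ hj => by
      rw [Pi.single_eq_of_ne hj, map_zero]) (fun h => absurd (Finset.mem_univ _) h), Pi.single_eq_same]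

theorem key_of_rigid [Finite F] (h2 : (2 : F) ≠ 0) (hR : IsRigid hQ g)
    (N : NF (1 : F) (polarB hQ) (isoEquiv g) lab) (i : κ) (hk : Odd (lab i).k) : (lab i).IsKey := by
  by_contra hkey
  have hl := N.valid i
  rcases hl.kind with ⟨hat, hd, -⟩ | ⟨c, -, hH, ⟨hd, -⟩ | ⟨-, -, he⟩⟩
  · obtain ⟨x, hx, hphi, -⟩ := exists_gen N i hd
    set hf := hl.recip_modulus
    set φ := (lab i).single (1 : F)
    have hgood := (N.good i hd).1 hl.recip
    obtain ⟨a, hau, hδu, hns⟩ := exists_det_nonsquare h2 hl.recip hat hk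
    obtain ⟨w, hw⟩ := (hau.map (sig hf)).exists_right_inv
    have hw' : a * sig hf w = 1 := by
      have := congrArg (sig hf) hw
      rwa [map_mul, map_one, sig_sig] at this
    have hwu : IsUnit w := isUnit_of_mul_isUnit_right (hw ▸ isUnit_one)
    have hu : a * w * sig hf (a * w) = 1 := by
      rw [map_mul]; linear_combination (a * sig hf w) * hw + hw'
    have h1u : 1 - a * w = (sig hf a - a) * w := by linear_combination -hw
    obtain ⟨h, hc, hr, hs⟩ := exists_piece_element h2 hf hx hphi hgood.2 (a * w) hu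
      (h1u ▸ hδu.mul hwu)
    have heven : Even (lab i).modulus.natDegree := by
      have h1 := (level_of_not_key h2 hl hkey).1.2
      rw [Lab.level, Lab.gens, hd, if_neg (by simp), pow_one] at h1
      rw [Lab.modulus, natDegree_pow]
      exact h1.mul_left _
    have hsq := hs.isSquare_iff.1 (hR h hc (by rw [hr]; exact heven))
    haveI := (AdjoinRoot.powerBasis' hf.monic).finite
    set δ := sig hf a - a
    have hδs : sig hf δ = -δ := by rw [map_sub, sig_sig, neg_sub]
    let ψ : AdjoinRoot (lab i).modulus →ₗ[F] F := φ ∘ₗ LinearMap.mulLeft F δ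
    have hψ : Nd ψ := fun z hz => hδu.mul_left_cancel (by
      rw [mul_zero]
      exact hgood.2 _ fun b => by rw [mul_assoc]; exact hz b)
    have halt : (prodForm hf ψ).IsAlt := fun z => by
      show φ (δ * (z * sig hf z)) = 0
      have h1 := hgood.1 (δ * (z * sig hf z))
      rw [show sig (hl.recip.pow (lab i).k) (δ * (z * sig hf z)) = -(δ * (z * sig hf z)) by
        show sig hf (δ * (z * sig hf z)) = _
        rw [map_mul (sig hf), map_mul (sig hf), hδs, sig_sig]; ring, map_neg, one_mul] at h1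
      have h3 : (2 : F) * φ (δ * (z * sig hf z)) = 0 := by linear_combination -h1
      exact (mul_eq_zero.1 h3).resolve_left h2
    have hsqG : IsSquare (gdet hf ψ) := isSquare_det_gram_of_isAlt _ _ halt (ker_prodForm hf hψ)
    rw [gdet_mul hf δ fun z => rfl] at hsqG
    have hwa : LinearMap.det (LinearMap.mulLeft F a) * LinearMap.det (LinearMap.mulLeft F w) = 1 := by
      rw [← det_sig hf a, ← det_mulLeft_mul, hw, LinearMap.mulLeft_one, LinearMap.det_id]
    rw [h1u, det_mulLeft_mul, mul_right_comm] at hsq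
    have hne : LinearMap.det (LinearMap.mulLeft F δ) * gdet hf φ ≠ 0 := by
      rw [← gdet_mul hf (ψ := ψ) δ fun z => rfl]
      exact gdet_ne_zero hf hψ
    have h4 := ((isSquare_mul_iff hne (right_ne_zero_of_mul_eq_one hwa)).1 hsq).1 hsqG
    obtain ⟨r, hr'⟩ := h4
    exact hns ⟨1 / r, by
      have hr0 : r ≠ 0 := fun e => right_ne_zero_of_mul_eq_one hwa (by rw [hr', e, mul_zero])
      field_simp
      rw [hr'] at hwa
      linear_combination hwa⟩
  · exact hkey ⟨c, hH, hd⟩
  · obtain ⟨m, hm⟩ := hk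
    rw [hm, Nat.add_sub_cancel, pow_mul, neg_one_sq, one_pow, one_mul] at he
    exact h2 (by linear_combination he)

theorem isSquare_mul_of_rigid [Finite F] (h2 : (2 : F) ≠ 0) (hR : IsRigid hQ g) {f f' : F[X]}
    (hf : Recip f) (hf' : Recip f') (hpar : Even (f.natDegree + f'.natDegree)) {x y : ι → F}
    (hx : x ∈ kill (isoEquiv g) f) (hy : y ∈ kill (isoEquiv g) f') {φ : AdjoinRoot f →ₗ[F] F}
    {ψ : AdjoinRoot f' →ₗ[F] F} (hφ : ∀ a, Phi (polarB hQ) (isoEquiv g) hf.monic x x a = φ a)
    (hψ : ∀ a, Phi (polarB hQ) (isoEquiv g) hf'.monic y y a = ψ a) (hnd : Nd φ) (hnd' : Nd ψ) :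
    IsSquare (2 ^ f.natDegree * gdet hf φ * (2 ^ f'.natDegree * gdet hf' ψ)) := by
  obtain ⟨h, hc, hr, hs⟩ := exists_neg_element h2 hf hx hφ hnd
  obtain ⟨h', hc', hr', hs'⟩ := exists_neg_element h2 hf' hy hψ hnd'
  have hexc := not_exc_of_two_ne_zero (ι := ι) h2
  obtain ⟨he, hs2⟩ := invariants_mul hQ hexc h.2 h'.2
  have hev : Even (finrank F (residual ((h * h' : Cfsg.isometryGroup F Q) : GL ι F))) := by
    rw [Subgroup.coe_mul, he, hr, hr', ← Nat.even_add]
    exact hpar
  exact (hs2.trans (hs.mul hs')).isSquare_iff.1 (hR (h * h') (hc.mul_left hc') hev)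

theorem isSquare_labVal [Finite F] (h2 : (2 : F) ≠ 0) (hR : IsRigid hQ g)
    (N : NF (1 : F) (polarB hQ) (isoEquiv g) lab) (i j : κ) (hi : (lab i).IsKey) (hj : (lab j).IsKey) :
    IsSquare (labVal (lab i) * labVal (lab j)) := by
  obtain ⟨c, hc, hd⟩ := id hi
  obtain ⟨c', hc', hd'⟩ := id hj
  obtain ⟨x, hx, hphi, -⟩ := exists_gen N i hd
  obtain ⟨y, hy, hphi', -⟩ := exists_gen N j hd'
  obtain ⟨ho, hn⟩ := odd_of_key h2 (N.valid i) hi
  obtain ⟨ho', hn'⟩ := odd_of_key h2 (N.valid j) hj
  rw [labVal_eq (N.valid i).recip_modulus, labVal_eq (N.valid j).recip_modulus]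
  exact isSquare_mul_of_rigid h2 hR _ _ (by rw [hn, hn']; exact ho.add_odd ho') hx hy hphi hphi'
    ((N.good i hd).1 (N.valid i).recip).2 ((N.good j hd').1 (N.valid j).recip).2

theorem one_add_sq_not_isSquare [Finite F] (h2 : (2 : F) ≠ 0) : ∃ t : F, ¬ IsSquare (1 + t * t) := by
  by_contra hcon
  push Not at hcon
  obtain ⟨ν, hν⟩ := exists_not_isSquare (F := F) h2
  have hclosed : ∀ a b : F, IsSquare (a * a + b * b) := by
    intro a b
    by_cases ha : a = 0
    · exact ⟨b, by rw [ha]; ring⟩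
    · obtain ⟨r, hr⟩ := hcon (b / a)
      exact ⟨a * r, by field_simp at hr; linear_combination hr⟩
  haveI := Fintype.ofFinite F
  obtain ⟨a, b, hab⟩ := FiniteField.exists_root_sum_quadratic (R := F) (f := X ^ 2) (g := X ^ 2 - C ν)
    (degree_X_pow 2) (degree_X_pow_sub_C (by norm_num) ν)
    (FiniteField.odd_card_of_char_ne_two fun e => h2 (by
      have := CharP.cast_eq_zero F (ringChar F)
      rwa [e, Nat.cast_ofNat] at this))
  simp only [eval_pow, eval_X, eval_sub, eval_C] at hab
  exact hν (by rw [show ν = a * a + b * b by linear_combination -hab]; exact hclosed a b)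

theorem eq_of_rigid [Finite F] (h2 : (2 : F) ≠ 0) (hR : IsRigid hQ g)
    (N : NF (1 : F) (polarB hQ) (isoEquiv g) lab) (i j : κ) (hi : (lab i).IsKey)
    (he : eraseSq (lab i) = eraseSq (lab j)) : i = j := by
  by_contra hne
  have hvi := N.valid i
  obtain ⟨c, hc, hd⟩ := id hi
  obtain ⟨hk, hn⟩ := odd_of_key h2 hvi hi
  rcases eraseSq_eq he with e | e
  · obtain ⟨x, hx, hphi, hrx⟩ := exists_gen N i hd
    obtain ⟨y, hy, hphi', hry⟩ := exists_gen N j (by rw [e]; exact hd)
    have hor := N.orth i j hne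
    have hor' := N.orth j i (Ne.symm hne)
    obtain ⟨t, ht⟩ := one_add_sq_not_isSquare (F := F) h2
    have hxy : ∀ (a : AdjoinRoot (lab i).modulus), polarB hQ (psi (isoEquiv g) hvi.monic x a) y = 0 := by
      intro a
      obtain ⟨p, hp⟩ := hrx a
      obtain ⟨p', hp'⟩ := hry 1
      rw [psi_one (N.valid j).monic hy] at hp'
      rw [hp, hp', hor]
    have hx1 : ∀ (f : F[X]) (hm : f.Monic) (_ : f = (lab j).modulus) (a : AdjoinRoot f),
        polarB hQ (psi (isoEquiv g) hm y a) x = 0 := by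
      rintro f hm rfl a
      obtain ⟨p, hp⟩ := hry a
      obtain ⟨p', hp'⟩ := hrx 1
      rw [psi_one hvi.monic hx] at hp'
      rw [hp, hp', hor']
    have hy' : y ∈ kill (isoEquiv g) (lab i).modulus := by
      rw [show (lab i).modulus = (lab j).modulus by rw [e]]; exact hy
    have hyy : ∀ a, Phi (polarB hQ) (isoEquiv g) hvi.monic y y a = (lab i).single (1 : F) a := by
      have key : ∀ (l : Lab F), l = lab j → ∀ (hm : l.modulus.Monic) a,
          Phi (polarB hQ) (isoEquiv g) hm y y a = l.single (1 : F) a := by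
        rintro l rfl hm a; exact hphi' a
      exact key _ e.symm _
    set z := x + t • y
    have hz : z ∈ kill (isoEquiv g) (lab i).modulus :=
      Submodule.add_mem _ hx (Submodule.smul_mem _ t hy')
    have hzz : ∀ a, Phi (polarB hQ) (isoEquiv g) hvi.monic z z a =
        (((1 + t * t) • (lab i).single (1 : F)) : _ →ₗ[F] F) a := by
      intro a
      have hyx := hx1 _ hvi.monic (by rw [e]) a
      have h1 := hphi a
      have h3 := hyy a
      rw [Phi_apply] at h1 h3 ⊢
      simp only [z, map_add, map_smul, LinearMap.add_apply, LinearMap.smul_apply, smul_eq_mul, hxy, hyx,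
        h1, h3]
      ring
    have hnd := ((N.good i hd).1 hvi.recip).2
    have hc0 : (1 + t * t) ≠ 0 := fun h0 => ht (by rw [h0]; exact IsSquare.zero)
    have hsq := isSquare_mul_of_rigid h2 hR hvi.recip_modulus hvi.recip_modulus (Even.add_self _) hx hz
      hphi hzz hnd (fun a ha => hnd a fun b => (mul_eq_zero.1 (ha b)).resolve_left hc0)
    haveI := (AdjoinRoot.powerBasis' hvi.monic).finite
    rw [gdet_mul hvi.recip_modulus (φ := (lab i).single (1 : F))
      (ψ := (1 + t * t) • (lab i).single (1 : F)) (algebraMap F _ (1 + t * t))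
      (fun a => by rw [← Algebra.smul_def, map_smul]; rfl),
      show LinearMap.mulLeft F (algebraMap F (AdjoinRoot (lab i).modulus) (1 + t * t)) =
        (1 + t * t) • (LinearMap.id : AdjoinRoot (lab i).modulus →ₗ[F] _) from LinearMap.ext fun a => by
          rw [LinearMap.mulLeft_apply, ← Algebra.smul_def]; rfl,
      LinearMap.det_smul, LinearMap.det_id, mul_one, (AdjoinRoot.powerBasis' hvi.monic).finrank,
      AdjoinRoot.powerBasis'_dim, hn] at hsq
    obtain ⟨m, hm⟩ := hk
    obtain ⟨r, hr⟩ := hsq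
    have hG := gdet_ne_zero hvi.recip_modulus hnd
    set G := gdet hvi.recip_modulus ((lab i).single (1 : F))
    rw [hm] at hr
    have key : ∀ A T : F, A ≠ 0 → T ≠ 0 → A * A * (T ^ (2 * m) * T) = r * r → IsSquare T :=
      fun A T hA hT h => ⟨r / (A * T ^ m), by
        field_simp
        linear_combination h⟩
    exact ht (key (2 ^ (2 * m + 1) * G) _ (mul_ne_zero (pow_ne_zero _ h2) hG) hc0
      (by rw [← hr]; ring))
  · have hj : (lab j).IsKey := by rw [e]; exact ⟨c, hc, hd⟩
    obtain ⟨t, ht, hv⟩ := labVal_flip h2 hvi hi (N.good i hd)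
    have h1 := isSquare_labVal h2 hR N i j hi hj
    rw [e, hv, mul_left_comm] at h1
    exact (not_isSquare_mul_iff ht (mul_self_ne_zero.2 (labVal_ne_zero h2 hvi (N.good i hd)))).1 h1 ⟨_, rfl⟩

/-- Labels without signs of rigid isometries. -/
def rigidSet (F : Type*) [Field F] (K N : ℕ) : Set (Multiset (Lab F)) :=
  {L | LabOK (1 : F) L ∧ (∀ l ∈ L, l.k ≤ K) ∧ (L.map Lab.wt).sum = N ∧
    ∀ l ∈ L, l.sq = true ∧ (Odd l.k → l.IsKey ∧ L.count l = 1)}

/-- The labels of a rigid isometry are determined by one bit and the labels without signs. -/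
theorem exists_rigid_data [Finite F] (h2 : (2 : F) ≠ 0) (hR : IsRigid hQ g) :
    ∃ (e : Bool) (U : Multiset (Lab F)), U ∈ rigidSet F (Fintype.card ι) (Fintype.card ι) ∧
      HasLabels (1 : F) (polarB hQ) (isoEquiv g) (U.map (pickSq e)) := by
  obtain ⟨L, hL, hok, hkb, hw⟩ := exists_hasLabels h2 (one_mul 1) (isEps_isoEquiv hQ g)
  obtain ⟨κ, _, lab, N, hN⟩ := hL
  set e : Bool := decide (∃ i, (lab i).IsKey ∧ IsSquare (labVal (lab i))) with he
  have hclass : ∀ i, (lab i).IsKey → (IsSquare (labVal (lab i)) ↔ e = true) := by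
    intro i hi
    rw [he, decide_eq_true_eq]
    refine ⟨fun h => ⟨i, hi, h⟩, fun ⟨j, hj, hjs⟩ => ?_⟩
    have h1 := isSquare_labVal h2 hR N i j hi hj
    have hd : ∀ i, (lab i).IsKey → labVal (lab i) ≠ 0 := fun i hi =>
      labVal_ne_zero h2 (N.valid i) (N.good i (hi.elim fun c h => h.2))
    exact ((isSquare_mul_iff (hd i hi) (hd j hj)).1 h1).2 hjs
  have hpick : ∀ i, pickSq e (eraseSq (lab i)) = lab i := by
    intro i
    have hkey' : (eraseSq (lab i)).IsKey ↔ (lab i).IsKey := Iff.rfl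
    by_cases hi : (lab i).IsKey
    · have hd : (lab i).dbl = false := hi.elim fun c h => h.2
      have hc := hclass i hi
      by_cases hs : (lab i).sq = true
      · have h0 : eraseSq (lab i) = lab i := Lab.ext rfl rfl rfl hs.symm
        rw [pickSq, h0, if_neg (fun h => h.2 hc)]
      · have h0 : eraseSq (lab i) = flipSq (lab i) := Lab.ext rfl rfl rfl (by
          show true = !(lab i).sq
          simp [Bool.eq_false_iff.2 hs])
        obtain ⟨t, ht, hv⟩ := labVal_flip h2 (N.valid i) hi (N.good i hd)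
        have hcond : ¬ (IsSquare (labVal (eraseSq (lab i))) ↔ e = true) := by
          rw [h0, hv, not_isSquare_mul_iff ht (labVal_ne_zero h2 (N.valid i) (N.good i hd)), ← hc]
          exact fun h => (iff_not_self h.symm).elim
        rw [pickSq, if_pos ⟨hkey'.2 hi, hcond⟩, h0]
        exact Lab.ext rfl rfl rfl (Bool.not_not _)
    · have h0 : eraseSq (lab i) = lab i :=
        Lab.ext rfl rfl rfl (level_of_not_key h2 (N.valid i) hi).2.symm
      rw [pickSq, h0, if_neg (fun h => hi h.1)]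
  refine ⟨e, L.map eraseSq, ⟨?_, ?_, ?_, ?_⟩, ⟨κ, inferInstance, lab, N, ?_⟩⟩
  · intro l hl
    obtain ⟨l', hl', rfl⟩ := Multiset.mem_map.1 hl
    refine ⟨?_, fun h => by simp [eraseSq] at h⟩
    have hv := (hok l' hl').1
    by_cases hk : l'.IsKey
    · by_cases hs : l'.sq = true
      · rwa [show eraseSq l' = l' from Lab.ext rfl rfl rfl hs.symm]
      · rw [show eraseSq l' = flipSq l' from Lab.ext rfl rfl rfl (by
          show true = !l'.sq
          simp [Bool.eq_false_iff.2 hs])]
        exact valid_flip hv hk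
    · rwa [show eraseSq l' = l' from Lab.ext rfl rfl rfl (level_of_not_key h2 hv hk).2.symm]
  · intro l hl
    obtain ⟨l', hl', rfl⟩ := Multiset.mem_map.1 hl
    exact (hkb l' hl').trans (Module.finrank_pi F).le
  · rw [Multiset.map_map]
    exact hw.trans (Module.finrank_pi F)
  · intro l hl
    refine ⟨?_, fun hk => ?_⟩
    · obtain ⟨l', -, rfl⟩ := Multiset.mem_map.1 hl; rfl
    · rw [← hN, NF.labels, Multiset.map_map] at hl ⊢
      obtain ⟨i, -, rfl⟩ := Multiset.mem_map.1 hl
      have hkey : (lab i).IsKey := key_of_rigid h2 hR N i hk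
      refine ⟨hkey, ?_⟩
      rw [Multiset.count_map]
      show (Finset.univ.filter fun j => eraseSq (lab i) = eraseSq (lab j)).card = 1
      rw [Finset.card_eq_one]
      exact ⟨i, Finset.eq_singleton_iff_unique_mem.2 ⟨by simp, fun j hj =>
        (eq_of_rigid h2 hR N i j hkey (Finset.mem_filter.1 hj).2).symm⟩⟩
  · rw [← hN, NF.labels, Multiset.map_map, Multiset.map_map]
    exact Multiset.map_congr rfl fun i _ => (hpick i).symm

end CfsgLib.OmegaClasses
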