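import Cfsg.Agent.OmegaClasses.IndexTwo
import Cfsg.Agent.OmegaClasses.Rigid

/-!
The special orthogonal group in odd dimension and odd characteristic.
-/

set_option autoImplicit false
set_option linter.style.haveILetI false

namespace CfsgLib.OmegaClasses

open Polynomial Module Matrix Cfsg.Geo CfsgLib.IsometryClasses CfsgLib.Classical.Orth CfsgLib.OrthGeo
open scoped _root_.Classical

variable {F : Type*} [Field F] [Finite F] {ι : Type} [Fintype ι] [DecidableEq ι] {Q : (ι → F) → F}

/-- The isometries with residual space of even dimension. -/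
noncomputable def soGroup (h2 : (2 : F) ≠ 0) (hQ : IsNondegenerateQuadraticForm Q) :
    Subgroup (Cfsg.isometryGroup F Q) :=
  ((MonoidHom.fst (Multiplicative (ZMod 2)) (Multiplicative (ZMod 2))).comp
    (classHom hQ (not_exc_of_two_ne_zero h2))).ker

/-- The spinor character. -/
noncomputable def soSpinor (h2 : (2 : F) ≠ 0) (hQ : IsNondegenerateQuadraticForm Q) :
    soGroup h2 hQ →* Multiplicative (ZMod 2) :=
  ((MonoidHom.snd (Multiplicative (ZMod 2)) (Multiplicative (ZMod 2))).comp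
    (classHom hQ (not_exc_of_two_ne_zero h2))).comp (soGroup h2 hQ).subtype

theorem mem_soGroup (h2 : (2 : F) ≠ 0) (hQ : IsNondegenerateQuadraticForm Q)
    (g : Cfsg.isometryGroup F Q) :
    g ∈ soGroup h2 hQ ↔ Even (finrank F (residual (g : GL ι F))) := by
  rw [soGroup, MonoidHom.mem_ker]
  exact classHom_fst hQ (not_exc_of_two_ne_zero h2) g

theorem mem_soGroup_of_det (h2 : (2 : F) ≠ 0) (hQ : IsNondegenerateQuadraticForm Q)
    (g : Cfsg.isometryGroup F Q) (hd : ((g : GL ι F) : Matrix ι ι F).det = 1) :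
    g ∈ soGroup h2 hQ := by
  rw [mem_soGroup h2 hQ]
  by_contra he
  rw [det_eq_neg_one_pow hQ (not_exc_of_two_ne_zero h2) g.2,
    (Nat.not_even_iff_odd.1 he).neg_one_pow] at hd
  exact h2 (by linear_combination -hd)

theorem exists_central_odd (h2 : (2 : F) ≠ 0) (hQ : IsNondegenerateQuadraticForm Q)
    (ho : Odd (Fintype.card ι)) :
    ∃ z : Cfsg.isometryGroup F Q, z ∉ soGroup h2 hQ ∧ ∀ x, Commute z x := by
  have hmem : (-1 : GL ι F) ∈ Cfsg.isometryGroup F Q := fun v w => by
    show Q (((-1 : GL ι F) : Matrix ι ι F) *ᵥ v) = Q v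
    rw [Units.val_neg, Units.val_one, Matrix.neg_mulVec, Matrix.one_mulVec, q_neg hQ]
  refine ⟨⟨-1, hmem⟩, fun he => ?_, fun x => Subtype.ext ?_⟩
  · rw [mem_soGroup h2 hQ] at he
    have h1 := det_eq_neg_one_pow hQ (not_exc_of_two_ne_zero h2) hmem
    rw [he.neg_one_pow, Units.val_neg, Units.val_one, Matrix.det_neg, Matrix.det_one, mul_one,
      ho.neg_one_pow] at h1
    exact h2 (by linear_combination -h1)
  · show (-1 : GL ι F) * x = x * -1
    rw [neg_one_mul, mul_neg_one]

theorem isConj_soGroup (h2 : (2 : F) ≠ 0) (hQ : IsNondegenerateQuadraticForm Q)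
    (ho : Odd (Fintype.card ι)) {g g' : soGroup h2 hQ}
    (h : IsConj (g : Cfsg.isometryGroup F Q) (g' : Cfsg.isometryGroup F Q)) : IsConj g g' := by
  obtain ⟨x, hx⟩ := isConj_iff.1 h
  obtain ⟨z, hz, hzc⟩ := exists_central_odd h2 hQ ho
  by_cases hm : x ∈ soGroup h2 hQ
  · exact isConj_iff.2 ⟨⟨x, hm⟩, Subtype.ext hx⟩
  · have h2' : ∀ a b : Multiplicative (ZMod 2), a ≠ 1 → b ≠ 1 → a * b = 1 := by decide
    have hxz : x * z ∈ soGroup h2 hQ := by
      rw [soGroup, MonoidHom.mem_ker, map_mul]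
      exact h2' _ _ hm hz
    refine isConj_iff.2 ⟨⟨x * z, hxz⟩, Subtype.ext ?_⟩
    show x * z * g * (x * z)⁻¹ = g'
    rw [← hx, _root_.mul_inv_rev, mul_assoc x z (g : Cfsg.isometryGroup F Q), (hzc g).eq]
    group

/-- The class number of the special orthogonal group is at most half of that of the isometry group. -/
theorem two_mul_card_classes_soGroup_le (h2 : (2 : F) ≠ 0) (hQ : IsNondegenerateQuadraticForm Q)
    (ho : Odd (Fintype.card ι)) :
    2 * Nat.card (ConjClasses (soGroup h2 hQ)) ≤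
      Nat.card (ConjClasses (Cfsg.isometryGroup F Q)) := by
  obtain ⟨z, hz, hzc⟩ := exists_central_odd h2 hQ ho
  haveI : Finite (Cfsg.isometryGroup F Q) := inferInstance
  let f : ConjClasses (soGroup h2 hQ) × Bool → ConjClasses (Cfsg.isometryGroup F Q) := fun p =>
    ConjClasses.mk ((Quotient.out p.1 : soGroup h2 hQ).1 * if p.2 then z else 1)
  rw [show 2 * Nat.card (ConjClasses (soGroup h2 hQ)) = Nat.card (ConjClasses (soGroup h2 hQ) × Bool) by
    rw [Nat.card_prod, Nat.card_eq_fintype_card (α := Bool), Fintype.card_bool, mul_comm]]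
  refine Nat.card_le_card_of_injective f ?_
  rintro ⟨C, b⟩ ⟨C', b'⟩ he
  obtain ⟨x, hx⟩ := isConj_iff.1 (ConjClasses.mk_eq_mk_iff_isConj.1 he)
  simp only at hx
  set p : Cfsg.isometryGroup F Q →* Multiplicative (ZMod 2) :=
    (MonoidHom.fst (Multiplicative (ZMod 2)) (Multiplicative (ZMod 2))).comp
      (classHom hQ (not_exc_of_two_ne_zero h2)) with hp
  have hpz : p z ≠ 1 := hz
  have hp0 : ∀ y : soGroup h2 hQ, p y = 1 := fun y => y.2
  have hb : b = b' := by
    have h1 := congrArg p hx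
    rw [map_mul, map_mul, map_inv, mul_inv_cancel_comm, map_mul, map_mul, hp0, hp0, one_mul, one_mul] at h1
    cases b <;> cases b' <;> simp_all
  subst hb
  set u : Cfsg.isometryGroup F Q := if b then z else 1
  have hu : ∀ y, Commute u y := fun y => by
    show Commute (if b then z else 1) y
    cases b
    exacts [Commute.one_left y, hzc y]
  have hC : IsConj (Quotient.out C : soGroup h2 hQ).1 (Quotient.out C' : soGroup h2 hQ).1 := by
    refine isConj_iff.2 ⟨x, mul_right_cancel (b := u) ?_⟩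
    rw [← hx, mul_assoc _ x⁻¹ u, ← (hu x⁻¹).eq]
    group
  have h1 := ConjClasses.mk_eq_mk_iff_isConj.2 (isConj_soGroup h2 hQ ho hC)
  rw [show ConjClasses.mk (Quotient.out C) = C from Quotient.out_eq C,
    show ConjClasses.mk (Quotient.out C') = C' from Quotient.out_eq C'] at h1
  rw [h1]

theorem omega_le_soGroup (h2 : (2 : F) ≠ 0) (hQ : IsNondegenerateQuadraticForm Q) :
    Cfsg.Omega F Q ≤ soGroup h2 hQ := fun g hg =>
  (mem_soGroup h2 hQ g).2 ((mem_omega_iff hQ (not_exc_of_two_ne_zero h2) g).1 hg).1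

/-- The class number of `Omega` from that of the special orthogonal group and the rigid classes. -/
theorem two_mul_card_classes_omega (h2 : (2 : F) ≠ 0) (hQ : IsNondegenerateQuadraticForm Q)
    (hn : 2 ≤ Fintype.card ι) :
    2 * Nat.card (ConjClasses ↥(Cfsg.Omega F Q)) = Nat.card (ConjClasses (soGroup h2 hQ)) +
      3 * Nat.card {C : ConjClasses (soGroup h2 hQ) //
        ∀ y : soGroup h2 hQ, Commute y (Quotient.out C) → soSpinor h2 hQ y = 1} := by
  haveI := Fintype.ofFinite (soGroup h2 hQ)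
  haveI := Fintype.ofFinite ↥(Cfsg.Omega F Q)
  refine two_mul_card_classes_ker (soSpinor h2 hQ)
    (by rw [Nat.card_congr Multiplicative.toAdd, Nat.card_zmod])
    (Subgroup.inclusion (omega_le_soGroup h2 hQ)) (Subgroup.inclusion_injective _) ?_ ?_
  · ext y
    rw [MonoidHom.mem_ker, MonoidHom.mem_range]
    constructor
    · rintro ⟨a, rfl⟩
      exact (classHom_snd hQ (not_exc_of_two_ne_zero h2) _).2 ((mem_omega_iff hQ (not_exc_of_two_ne_zero h2) _).1 a.2).2
    · intro hy
      exact ⟨⟨y.1, (mem_omega_iff hQ (not_exc_of_two_ne_zero h2) _).2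
        ⟨(mem_soGroup h2 hQ _).1 y.2, (classHom_snd hQ (not_exc_of_two_ne_zero h2) _).1 hy⟩⟩, rfl⟩
  · intro a
    obtain ⟨y, hy⟩ := classHom_surjective hQ h2 hn (1, a)
    exact ⟨⟨y, show (classHom hQ (not_exc_of_two_ne_zero h2) y).1 = 1 by rw [hy]⟩,
      show (classHom hQ (not_exc_of_two_ne_zero h2) y).2 = a by rw [hy]⟩

end CfsgLib.OmegaClasses
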